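import Cfsg.Agent.Lib.OddGraph.Cycle

/-! Cycles of length four: pairs of them, and absorbing a single one. -/

set_option autoImplicit false

namespace Cfsg.Agent.Lib.OddGraph

open Function Equiv

variable {α : Type*} [Fintype α]

open Classical

/-- override `g` by a transposition -/
noncomputable def sw (p q : α) (g : α → α) : α → α := fun t => if t = p then q else if t = q then p else g t

lemma sw_l (p q : α) (g : α → α) : sw p q g p = q := by simp [sw]
lemma sw_r {p q : α} (g : α → α) (h : q ≠ p) : sw p q g q = p := by simp [sw, h]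
lemma sw_o {p q t : α} (g : α → α) (h1 : t ≠ p) (h2 : t ≠ q) : sw p q g t = g t := by simp [sw, h1, h2]

/-- a cycle of length four -/
structure IsL2 (x y : α → α) (a b c d : α) : Prop where
  xa : x a = b
  xc : x c = d
  yb : y b = c
  yd : y d = a
  ab : a ≠ b
  ac : a ≠ c
  ad : a ≠ d
  bc : b ≠ c
  bd : b ≠ d
  cd : c ≠ d

/-- two cycles of length four -/
lemma sol_l2_pair {x y : α → α} (hx : ∀ a, x (x a) = a) (hy : ∀ a, y (y a) = a) {a b c d a' b' c' d' : α}
    (L : IsL2 x y a b c d) (L' : IsL2 x y a' b' c' d')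
    (hne : ∀ s ∈ ({a, b, c, d} : Finset α), ∀ t ∈ ({a', b', c', d'} : Finset α), s ≠ t) :
    ∃ z : α → α, Sol x y (({a, b, c, d} : Finset α) ∪ {a', b', c', d'}) z ∧
      Flag x (({a, b, c, d} : Finset α) ∪ {a', b', c', d'}) z := by
  have n1 := hne a (by simp) a' (by simp)
  have n2 := hne a (by simp) b' (by simp)
  have n3 := hne a (by simp) c' (by simp)
  have n4 := hne a (by simp) d' (by simp)
  have n5 := hne b (by simp) a' (by simp)
  have n6 := hne b (by simp) b' (by simp)
  have n7 := hne b (by simp) c' (by simp)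
  have n8 := hne b (by simp) d' (by simp)
  have n9 := hne c (by simp) a' (by simp)
  have n10 := hne c (by simp) b' (by simp)
  have n11 := hne c (by simp) c' (by simp)
  have n12 := hne c (by simp) d' (by simp)
  have n13 := hne d (by simp) a' (by simp)
  have n14 := hne d (by simp) b' (by simp)
  have n15 := hne d (by simp) c' (by simp)
  have n16 := hne d (by simp) d' (by simp)
  have l1 := L.ab; have l2 := L.ac; have l3 := L.ad; have l4 := L.bc; have l5 := L.bd; have l6 := L.cd
  have m1 := L'.ab; have m2 := L'.ac; have m3 := L'.ad; have m4 := L'.bc; have m5 := L'.bd; have m6 := L'.cd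
  let z : α → α := sw a b (sw b' c' (sw c a' (sw d d' id)))
  have za : z a = b := sw_l _ _ _
  have zb : z b = a := sw_r _ l1.symm
  have zb' : z b' = c' := by
    simp only [z]; rw [sw_o _ n2.symm n6.symm, sw_l]
  have zc' : z c' = b' := by
    simp only [z]; rw [sw_o _ n3.symm n7.symm, sw_r _ m4.symm]
  have zc : z c = a' := by
    simp only [z]; rw [sw_o _ l2.symm l4.symm, sw_o _ n10 n11, sw_l]
  have za' : z a' = c := by
    simp only [z]; rw [sw_o _ n1.symm n5.symm, sw_o _ m1 m2, sw_r _ n9.symm]
  have zd : z d = d' := by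
    simp only [z]; rw [sw_o _ l3.symm l5.symm, sw_o _ n14 n15, sw_o _ l6.symm n13, sw_l]
  have zd' : z d' = d := by
    simp only [z]; rw [sw_o _ n4.symm n8.symm, sw_o _ m5.symm m6.symm, sw_o _ n12.symm m3.symm, sw_r _ n16.symm]
  have xb : x b = a := by rw [← L.xa, hx]
  have xd : x d = c := by rw [← L.xc, hx]
  have xb' : x b' = a' := by rw [← L'.xa, hx]
  have xd' : x d' = c' := by rw [← L'.xc, hx]
  have yc : y c = b := by rw [← L.yb, hy]
  have ya : y a = d := by rw [← L.yd, hy]
  have yc' : y c' = b' := by rw [← L'.yb, hy]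
  have ya' : y a' = d' := by rw [← L'.yd, hy]
  have xa := L.xa; have xc := L.xc; have yb := L.yb; have yd := L.yd
  have xa' := L'.xa; have xc' := L'.xc; have yb' := L'.yb; have yd' := L'.yd
  refine ⟨z, ⟨?_, ?_, ?_, ?_, ?_⟩, ⟨a, by simp, ?_⟩⟩
  · intro t
    by_cases h1 : t = a
    · rw [h1, za, zb]
    by_cases h2 : t = b
    · rw [h2, zb, za]
    by_cases h3 : t = b'
    · rw [h3, zb', zc']
    by_cases h4 : t = c'
    · rw [h4, zc', zb']
    by_cases h5 : t = c
    · rw [h5, zc, za']
    by_cases h6 : t = a'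
    · rw [h6, za', zc]
    by_cases h7 : t = d
    · rw [h7, zd, zd']
    by_cases h8 : t = d'
    · rw [h8, zd', zd]
    have : z t = t := by
      simp only [z]
      rw [sw_o _ h1 h2, sw_o _ h3 h4, sw_o _ h5 h6, sw_o _ h7 h8]
      rfl
    rw [this, this]
  · intro t ht
    simp only [Finset.mem_union, Finset.mem_insert, Finset.mem_singleton, not_or] at ht
    simp only [z]
    rw [sw_o _ ht.1.1 ht.1.2.1, sw_o _ ht.2.2.1 ht.2.2.2.1, sw_o _ ht.1.2.2.1 ht.2.1, sw_o _ ht.1.2.2.2 ht.2.2.2.2]
    rfl
  · rw [Finset.filter_false_of_mem, Finset.filter_false_of_mem]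
    · intro t ht
      simp only [Finset.mem_union, Finset.mem_insert, Finset.mem_singleton] at ht
      rcases ht with (rfl | rfl | rfl | rfl) | (rfl | rfl | rfl | rfl)
      · rw [xa]; exact l1.symm
      · rw [xb]; exact l1
      · rw [xc]; exact l6.symm
      · rw [xd]; exact l6
      · rw [xa']; exact m1.symm
      · rw [xb']; exact m1
      · rw [xc']; exact m6.symm
      · rw [xd']; exact m6
    · intro t ht
      simp only [Finset.mem_union, Finset.mem_insert, Finset.mem_singleton] at ht
      rcases ht with (rfl | rfl | rfl | rfl) | (rfl | rfl | rfl | rfl)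
      · rw [za]; exact l1.symm
      · rw [zb]; exact l1
      · rw [zc]; exact n9.symm
      · rw [zd]; exact n16.symm
      · rw [za']; exact n9
      · rw [zb']; exact m4.symm
      · rw [zc']; exact m4
      · rw [zd']; exact n16
  · refine ⟨3, by decide, ?_⟩
    set T := x ∘ z with hT
    have t1 : T a = a := by simp [hT, za, xb]
    have t2 : T b = b := by simp [hT, zb, xa]
    have t3 : T c = b' := by simp [hT, zc, xa']
    have t4 : T b' = d' := by simp [hT, zb', xc']
    have t5 : T d' = c := by simp [hT, zd', xd]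
    have t6 : T d = c' := by simp [hT, zd, xd']
    have t7 : T c' = a' := by simp [hT, zc', xb']
    have t8 : T a' = d := by simp [hT, za', xc]
    intro t ht
    have h3 : T^[3] t = T (T (T t)) := rfl
    rw [h3]
    simp only [Finset.mem_union, Finset.mem_insert, Finset.mem_singleton] at ht
    rcases ht with (rfl | rfl | rfl | rfl) | (rfl | rfl | rfl | rfl)
    · rw [t1, t1, t1]
    · rw [t2, t2, t2]
    · rw [t3, t4, t5]
    · rw [t6, t7, t8]
    · rw [t8, t6, t7]
    · rw [t4, t5, t3]
    · rw [t7, t8, t6]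
    · rw [t5, t3, t4]
  · refine ⟨3, by decide, ?_⟩
    set T := y ∘ z with hT
    have t1 : T b' = b' := by simp [hT, zb', yc']
    have t2 : T c' = c' := by simp [hT, zc', yb']
    have t3 : T a = c := by simp [hT, za, yb]
    have t4 : T c = d' := by simp [hT, zc, ya']
    have t5 : T d' = a := by simp [hT, zd', yd]
    have t6 : T b = d := by simp [hT, zb, ya]
    have t7 : T d = a' := by simp [hT, zd, yd']
    have t8 : T a' = b := by simp [hT, za', yc]
    intro t ht
    have h3 : T^[3] t = T (T (T t)) := rfl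
    rw [h3]
    simp only [Finset.mem_union, Finset.mem_insert, Finset.mem_singleton] at ht
    rcases ht with (rfl | rfl | rfl | rfl) | (rfl | rfl | rfl | rfl)
    · rw [t3, t4, t5]
    · rw [t6, t7, t8]
    · rw [t4, t5, t3]
    · rw [t7, t8, t6]
    · rw [t8, t6, t7]
    · rw [t1, t1, t1]
    · rw [t2, t2, t2]
    · rw [t5, t3, t4]
  · rw [za, L.xa]

/-- absorbing a cycle of length four with a common fixed point of `x` and `z` -/
lemma absorb_fix {x y z : α → α} (hx : ∀ a, x (x a) = a) (hy : ∀ a, y (y a) = a) {S : Finset α} {a b c d q : α}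
    (L : IsL2 x y a b c d) (hS : Sol x y S z) (hxS : ∀ t ∈ S, x t ∈ S) (hyS : ∀ t ∈ S, y t ∈ S)
    (haS : a ∉ S) (hbS : b ∉ S) (hcS : c ∉ S) (hdS : d ∉ S) (hqS : q ∈ S) (hxq : x q = q) (hzq : z q = q) :
    ∃ z' : α → α, Sol x y (S ∪ {a, b, c, d}) z' := by
  have l1 := L.ab; have l2 := L.ac; have l3 := L.ad; have l4 := L.bc; have l5 := L.bd; have l6 := L.cd
  have ha : a ≠ q := fun h => haS (h ▸ hqS)
  have hb : b ≠ q := fun h => hbS (h ▸ hqS)
  have hc : c ≠ q := fun h => hcS (h ▸ hqS)
  have hd : d ≠ q := fun h => hdS (h ▸ hqS)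
  have za0 := hS.off a haS
  have zb0 := hS.off b hbS
  have zc0 := hS.off c hcS
  have zd0 := hS.off d hdS
  let z' : α → α := sw a q (sw b d z)
  have za : z' a = q := sw_l _ _ _
  have zq : z' q = a := sw_r _ ha.symm
  have zb : z' b = d := by simp only [z']; rw [sw_o _ l1.symm hb, sw_l]
  have zd : z' d = b := by simp only [z']; rw [sw_o _ l3.symm hd, sw_r _ l5.symm]
  have zc : z' c = c := by simp only [z']; rw [sw_o _ l2.symm hc, sw_o _ l4.symm l6, zc0]
  have zo : ∀ t, t ≠ a → t ≠ q → t ≠ b → t ≠ d → z' t = z t := by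
    intro t h1 h2 h3 h4
    simp only [z']
    rw [sw_o _ h1 h2, sw_o _ h3 h4]
  have xb : x b = a := by rw [← L.xa, hx]
  have xd : x d = c := by rw [← L.xc, hx]
  have yc : y c = b := by rw [← L.yb, hy]
  have ya : y a = d := by rw [← L.yd, hy]
  have xa := L.xa; have xc := L.xc; have yb := L.yb; have yd := L.yd
  have hS' : ∀ t ∈ S, t ≠ q → z' t = z t := by
    intro t ht htq
    exact zo t (fun h => haS (h ▸ ht)) htq (fun h => hbS (h ▸ ht)) (fun h => hdS (h ▸ ht))
  refine ⟨z', ⟨?_, ?_, ?_, ?_, ?_⟩⟩
  · intro t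
    by_cases h1 : t = a
    · rw [h1, za, zq]
    by_cases h2 : t = q
    · rw [h2, zq, za]
    by_cases h3 : t = b
    · rw [h3, zb, zd]
    by_cases h4 : t = d
    · rw [h4, zd, zb]
    rw [zo t h1 h2 h3 h4, zo (z t), hS.inv]
    · intro h; apply h1; rw [← hS.inv t, h, za0]
    · intro h; apply h2; rw [← hS.inv t, h, hzq]
    · intro h; apply h3; rw [← hS.inv t, h, zb0]
    · intro h; apply h4; rw [← hS.inv t, h, zd0]
  · intro t ht
    simp only [Finset.mem_union, Finset.mem_insert, Finset.mem_singleton, not_or] at ht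
    rw [zo t ht.2.1 (fun h => ht.1 (h ▸ hqS)) ht.2.2.1 ht.2.2.2.2]
    exact hS.off t ht.1
  · have e1 : (S ∪ {a, b, c, d}).filter (fun t => z' t = t) = insert c ((S.filter fun t => z t = t).erase q) := by
      ext t
      simp only [Finset.mem_filter, Finset.mem_union, Finset.mem_insert, Finset.mem_singleton,
        Finset.mem_erase]
      constructor
      · rintro ⟨(ht | rfl | rfl | rfl | rfl), h⟩
        · by_cases htq : t = q
          · subst htq
            rw [zq] at h
            exact absurd h ha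
          · right
            exact ⟨htq, ht, by rw [← hS' t ht htq]; exact h⟩
        · rw [za] at h; exact absurd h ha.symm
        · rw [zb] at h; exact absurd h l5.symm
        · left; rfl
        · rw [zd] at h; exact absurd h l5
      · rintro (rfl | ⟨h1, h2, h3⟩)
        · exact ⟨by simp, zc⟩
        · exact ⟨Or.inl h2, by rw [hS' t h2 h1]; exact h3⟩
    have e2 : (S ∪ {a, b, c, d}).filter (fun t => x t = t) = S.filter fun t => x t = t := by
      ext t
      simp only [Finset.mem_filter, Finset.mem_union, Finset.mem_insert, Finset.mem_singleton]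
      constructor
      · rintro ⟨(ht | rfl | rfl | rfl | rfl), h⟩
        · exact ⟨ht, h⟩
        · rw [xa] at h; exact absurd h l1.symm
        · rw [xb] at h; exact absurd h l1
        · rw [xc] at h; exact absurd h l6.symm
        · rw [xd] at h; exact absurd h l6
      · rintro ⟨h1, h2⟩
        exact ⟨Or.inl h1, h2⟩
    rw [e1, e2, ← hS.cnt, Finset.card_insert_of_notMem, Finset.card_erase_of_mem]
    · have : 0 < (S.filter fun t => z t = t).card := Finset.card_pos.2 ⟨q, by simp [hqS, hzq]⟩
      omega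
    · simp [hqS, hzq]
    · simp [hcS]
  · -- odd for `x z'`
    have h1 : OddOn (x ∘ z') (S.erase q) := by
      refine OddOn.congr (g := x ∘ z) ?_ ?_ (hS.odd1.mono (Finset.erase_subset _ _))
      · intro t ht
        have := Finset.mem_erase.1 ht
        simp [hS' t this.2 this.1]
      · intro t ht
        have := Finset.mem_erase.1 ht
        refine Finset.mem_erase.2 ⟨?_, hxS _ (hS.mem this.2)⟩
        intro h
        apply this.1
        have h2 : z t = q := by rw [← hx (z t)]; simp only [comp_apply] at h; rw [h, hxq]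
        rw [← hS.inv t, h2, hzq]
    have h2 : OddOn (x ∘ z') {a, b, c, d, q} := by
      refine ⟨5, by decide, ?_⟩
      set T := x ∘ z' with hT
      have t1 : T q = b := by simp [hT, zq, xa]
      have t2 : T b = c := by simp [hT, zb, xd]
      have t3 : T c = d := by simp [hT, zc, xc]
      have t4 : T d = a := by simp [hT, zd, xb]
      have t5 : T a = q := by simp [hT, za, hxq]
      intro t ht
      have h3 : T^[5] t = T (T (T (T (T t)))) := rfl
      rw [h3]
      simp only [Finset.mem_insert, Finset.mem_singleton] at ht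
      rcases ht with rfl | rfl | rfl | rfl | rfl
      · rw [t5, t1, t2, t3, t4]
      · rw [t2, t3, t4, t5, t1]
      · rw [t3, t4, t5, t1, t2]
      · rw [t4, t5, t1, t2, t3]
      · rw [t1, t2, t3, t4, t5]
    refine (h1.union h2).mono ?_
    intro t ht
    simp only [Finset.mem_union, Finset.mem_insert, Finset.mem_singleton, Finset.mem_erase] at ht ⊢
    tauto
  · -- odd for `y z'`
    set T := y ∘ z with hT
    have hTS : ∀ t ∈ S, T t ∈ S := fun t ht => hyS _ (hS.mem ht)
    let T₁ : α → α := fun t => if t = q then d else if t = d then c else if t = c then T q else T t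
    have T₁q : T₁ q = d := by simp [T₁]
    have T₁d : T₁ d = c := by simp [T₁, hd]
    have T₁c : T₁ c = T q := by simp [T₁, hc, l6]
    have T₁S : ∀ t ∈ S, t ≠ q → T₁ t = T t := by
      intro t ht htq
      have h1 : t ≠ d := fun h => hdS (h ▸ ht)
      have h2 : t ≠ c := fun h => hcS (h ▸ ht)
      simp [T₁, htq, h1, h2]
    have o1 : OddOn T₁ (insert d (insert c S)) :=
      ins2 hqS hdS hcS hTS hS.odd2 T₁q T₁d T₁c T₁S
    have o2 : OddOn (y ∘ z') (insert b (insert a (insert d (insert c S)))) := by
      refine ins2 (T := T₁) (q := c) (by simp) ?_ ?_ ?_ o1 ?_ ?_ ?_ ?_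
      · simp [l4, l5, hbS]
      · simp [l2, l3, haS]
      · intro t ht
        simp only [Finset.mem_insert] at ht ⊢
        rcases ht with rfl | rfl | ht
        · rw [T₁d]; simp
        · rw [T₁c]; simp [hTS q hqS]
        · by_cases h : t = q
          · rw [h, T₁q]; simp
          · rw [T₁S t ht h]; simp [hTS t ht]
      · simp [zc, yc]
      · simp [zb, yd]
      · rw [T₁c]
        simp [hT, za, hzq]
      · intro t ht htc
        simp only [Finset.mem_insert] at ht
        rcases ht with rfl | rfl | ht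
        · rw [T₁d]; simp [zd, yb]
        · exact absurd rfl htc
        · by_cases h : t = q
          · rw [h, T₁q]; simp [zq, ya]
          · rw [T₁S t ht h]; simp [hT, hS' t ht h]
    refine o2.mono ?_
    intro t ht
    simp only [Finset.mem_union, Finset.mem_insert, Finset.mem_singleton] at ht ⊢
    tauto

/-- absorbing a cycle of length four with an edge common to `x` and `z` -/
lemma absorb_edge {x y z : α → α} (hx : ∀ a, x (x a) = a) (hy : ∀ a, y (y a) = a) {S : Finset α} {a b c d e₁ : α}
    (L : IsL2 x y a b c d) (hS : Sol x y S z) (hxS : ∀ t ∈ S, x t ∈ S) (hyS : ∀ t ∈ S, y t ∈ S)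
    (haS : a ∉ S) (hbS : b ∉ S) (hcS : c ∉ S) (hdS : d ∉ S) (he₁S : e₁ ∈ S) (hne : x e₁ ≠ e₁) (hze : z e₁ = x e₁) :
    ∃ z' : α → α, Sol x y (S ∪ {a, b, c, d}) z' := by
  set e₂ := x e₁ with he₂
  have he₂S : e₂ ∈ S := hxS _ he₁S
  have hxe₂ : x e₂ = e₁ := hx e₁
  have hze₂ : z e₂ = e₁ := by rw [← hze, hS.inv]
  have l1 := L.ab; have l2 := L.ac; have l3 := L.ad; have l4 := L.bc; have l5 := L.bd; have l6 := L.cd
  have a1 : a ≠ e₁ := fun h => haS (h ▸ he₁S)
  have b1 : b ≠ e₁ := fun h => hbS (h ▸ he₁S)
  have c1 : c ≠ e₁ := fun h => hcS (h ▸ he₁S)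
  have d1 : d ≠ e₁ := fun h => hdS (h ▸ he₁S)
  have a2 : a ≠ e₂ := fun h => haS (h ▸ he₂S)
  have b2 : b ≠ e₂ := fun h => hbS (h ▸ he₂S)
  have c2 : c ≠ e₂ := fun h => hcS (h ▸ he₂S)
  have d2 : d ≠ e₂ := fun h => hdS (h ▸ he₂S)
  have za0 := hS.off a haS
  have zb0 := hS.off b hbS
  have zc0 := hS.off c hcS
  have zd0 := hS.off d hdS
  let z' : α → α := sw a c (sw b e₁ (sw d e₂ z))
  have za : z' a = c := sw_l _ _ _
  have zc : z' c = a := sw_r _ l2.symm
  have zb : z' b = e₁ := by simp only [z']; rw [sw_o _ l1.symm l4, sw_l]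
  have ze₁ : z' e₁ = b := by simp only [z']; rw [sw_o _ a1.symm c1.symm, sw_r _ b1.symm]
  have zd : z' d = e₂ := by simp only [z']; rw [sw_o _ l3.symm l6.symm, sw_o _ l5.symm d1, sw_l]
  have ze₂ : z' e₂ = d := by
    simp only [z']; rw [sw_o _ a2.symm c2.symm, sw_o _ b2.symm hne, sw_r _ d2.symm]
  have zo : ∀ t, t ≠ a → t ≠ c → t ≠ b → t ≠ e₁ → t ≠ d → t ≠ e₂ → z' t = z t := by
    intro t h1 h2 h3 h4 h5 h6
    simp only [z']
    rw [sw_o _ h1 h2, sw_o _ h3 h4, sw_o _ h5 h6]
  have xb : x b = a := by rw [← L.xa, hx]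
  have xd : x d = c := by rw [← L.xc, hx]
  have yc : y c = b := by rw [← L.yb, hy]
  have ya : y a = d := by rw [← L.yd, hy]
  have xa := L.xa; have xc := L.xc; have yb := L.yb; have yd := L.yd
  have hS' : ∀ t ∈ S, t ≠ e₁ → t ≠ e₂ → z' t = z t := by
    intro t ht h1 h2
    exact zo t (fun h => haS (h ▸ ht)) (fun h => hcS (h ▸ ht)) (fun h => hbS (h ▸ ht)) h1
      (fun h => hdS (h ▸ ht)) h2
  refine ⟨z', ⟨?_, ?_, ?_, ?_, ?_⟩⟩
  · intro t
    by_cases h1 : t = a
    · rw [h1, za, zc]
    by_cases h2 : t = c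
    · rw [h2, zc, za]
    by_cases h3 : t = b
    · rw [h3, zb, ze₁]
    by_cases h4 : t = e₁
    · rw [h4, ze₁, zb]
    by_cases h5 : t = d
    · rw [h5, zd, ze₂]
    by_cases h6 : t = e₂
    · rw [h6, ze₂, zd]
    rw [zo t h1 h2 h3 h4 h5 h6, zo (z t), hS.inv]
    · intro h; apply h1; rw [← hS.inv t, h, za0]
    · intro h; apply h2; rw [← hS.inv t, h, zc0]
    · intro h; apply h3; rw [← hS.inv t, h, zb0]
    · intro h; apply h6; rw [← hS.inv t, h, hze]
    · intro h; apply h5; rw [← hS.inv t, h, zd0]
    · intro h; apply h4; rw [← hS.inv t, h, hze₂]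
  · intro t ht
    simp only [Finset.mem_union, Finset.mem_insert, Finset.mem_singleton, not_or] at ht
    rw [zo t ht.2.1 ht.2.2.2.1 ht.2.2.1 (fun h => ht.1 (h ▸ he₁S)) ht.2.2.2.2 (fun h => ht.1 (h ▸ he₂S))]
    exact hS.off t ht.1
  · have e1 : (S ∪ {a, b, c, d}).filter (fun t => z' t = t) = S.filter fun t => z t = t := by
      ext t
      simp only [Finset.mem_filter, Finset.mem_union, Finset.mem_insert, Finset.mem_singleton]
      constructor
      · rintro ⟨(ht | rfl | rfl | rfl | rfl), h⟩
        · by_cases h1 : t = e₁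
          · subst h1
            rw [ze₁] at h
            exact absurd h b1
          by_cases h2 : t = e₂
          · rw [h2, ze₂] at h
            exact absurd h d2
          exact ⟨ht, by rw [← hS' t ht h1 h2]; exact h⟩
        · rw [za] at h; exact absurd h l2.symm
        · rw [zb] at h; exact absurd h b1.symm
        · rw [zc] at h; exact absurd h l2
        · rw [zd] at h; exact absurd h d2.symm
      · rintro ⟨h1, h2⟩
        refine ⟨Or.inl h1, ?_⟩
        by_cases h3 : t = e₁
        · rw [h3] at h2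
          rw [hze] at h2
          exact absurd h2 hne
        by_cases h4 : t = e₂
        · rw [h4, hze₂] at h2
          exact absurd h2.symm hne
        rw [hS' t h1 h3 h4]
        exact h2
    have e2 : (S ∪ {a, b, c, d}).filter (fun t => x t = t) = S.filter fun t => x t = t := by
      ext t
      simp only [Finset.mem_filter, Finset.mem_union, Finset.mem_insert, Finset.mem_singleton]
      constructor
      · rintro ⟨(ht | rfl | rfl | rfl | rfl), h⟩
        · exact ⟨ht, h⟩
        · rw [xa] at h; exact absurd h l1.symm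
        · rw [xb] at h; exact absurd h l1
        · rw [xc] at h; exact absurd h l6.symm
        · rw [xd] at h; exact absurd h l6
      · rintro ⟨h1, h2⟩
        exact ⟨Or.inl h1, h2⟩
    rw [e1, e2, hS.cnt]
  · have h1 : OddOn (x ∘ z') ((S.erase e₁).erase e₂) := by
      refine OddOn.congr (g := x ∘ z) ?_ ?_ (hS.odd1.mono ?_)
      · intro t ht
        simp only [Finset.mem_erase] at ht
        simp [hS' t ht.2.2 ht.2.1 ht.1]
      · intro t ht
        simp only [Finset.mem_erase] at ht ⊢
        refine ⟨?_, ?_, hxS _ (hS.mem ht.2.2)⟩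
        · intro h
          apply ht.1
          have h2 : z t = e₁ := by rw [← hx (z t)]; simp only [comp_apply] at h; rw [h, hxe₂]
          rw [← hS.inv t, h2, hze]
        · intro h
          apply ht.2.1
          have h2 : z t = e₂ := by rw [← hx (z t)]; simp only [comp_apply] at h; rw [h]
          rw [← hS.inv t, h2, hze₂]
      · intro t ht
        simp only [Finset.mem_erase] at ht
        exact ht.2.2
    have h2 : OddOn (x ∘ z') {a, b, c, d, e₁, e₂} := by
      refine ⟨3, by decide, ?_⟩
      set T := x ∘ z' with hT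
      have t1 : T a = d := by simp [hT, za, xc]
      have t2 : T d = e₁ := by simp [hT, zd, hxe₂]
      have t3 : T e₁ = a := by simp [hT, ze₁, xb]
      have t4 : T c = b := by simp [hT, zc, xa]
      have t5 : T b = e₂ := by simp [hT, zb, he₂]
      have t6 : T e₂ = c := by simp [hT, ze₂, xd]
      intro t ht
      have h3 : T^[3] t = T (T (T t)) := rfl
      rw [h3]
      simp only [Finset.mem_insert, Finset.mem_singleton] at ht
      rcases ht with rfl | rfl | rfl | rfl | rfl | h
      · rw [t1, t2, t3]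
      · rw [t5, t6, t4]
      · rw [t4, t5, t6]
      · rw [t2, t3, t1]
      · rw [t3, t1, t2]
      · rw [h, t6, t4, t5]
    refine (h1.union h2).mono ?_
    intro t ht
    simp only [Finset.mem_union, Finset.mem_insert, Finset.mem_singleton, Finset.mem_erase] at ht ⊢
    tauto
  · set T := y ∘ z with hT
    have hTS : ∀ t ∈ S, T t ∈ S := fun t ht => hyS _ (hS.mem ht)
    let T₁ : α → α := fun t => if t = e₁ then c else if t = c then d else if t = d then T e₁ else T t
    have T₁e : T₁ e₁ = c := by simp [T₁]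
    have T₁c : T₁ c = d := by simp [T₁, c1]
    have T₁d : T₁ d = T e₁ := by simp [T₁, d1, l6.symm]
    have T₁S : ∀ t ∈ S, t ≠ e₁ → T₁ t = T t := by
      intro t ht htq
      have h1 : t ≠ d := fun h => hdS (h ▸ ht)
      have h2 : t ≠ c := fun h => hcS (h ▸ ht)
      simp [T₁, htq, h1, h2]
    have o1 : OddOn T₁ (insert c (insert d S)) :=
      ins2 he₁S hcS hdS hTS hS.odd2 T₁e T₁c T₁d T₁S
    have hne2 : e₂ ≠ e₁ := hne
    have o2 : OddOn (y ∘ z') (insert a (insert b (insert c (insert d S)))) := by
      refine ins2 (T := T₁) (q := e₂) (by simp [he₂S]) ?_ ?_ ?_ o1 ?_ ?_ ?_ ?_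
      · simp [l2, l3, haS]
      · simp [l4, l5, hbS]
      · intro t ht
        simp only [Finset.mem_insert] at ht ⊢
        rcases ht with rfl | rfl | ht
        · rw [T₁c]; simp
        · rw [T₁d]; simp [hTS e₁ he₁S]
        · by_cases h : t = e₁
          · rw [h, T₁e]; simp
          · rw [T₁S t ht h]; simp [hTS t ht]
      · simp [ze₂, yd]
      · simp [za, yc]
      · rw [T₁S e₂ he₂S hne2]
        simp [hT, zb, hze₂]
      · intro t ht htc
        simp only [Finset.mem_insert] at ht
        rcases ht with rfl | rfl | ht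
        · rw [T₁c]; simp [zc, ya]
        · rw [T₁d]; simp [hT, zd, hze]
        · by_cases h : t = e₁
          · rw [h, T₁e]; simp [ze₁, yb]
          · rw [T₁S t ht h]; simp [hT, hS' t ht h htc]
    refine o2.mono ?_
    intro t ht
    simp only [Finset.mem_union, Finset.mem_insert, Finset.mem_singleton] at ht ⊢
    tauto

end Cfsg.Agent.Lib.OddGraph
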