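import Mathlib

/-! Odd-product involution graph of `S_n`: basic notions. -/

set_option autoImplicit false

namespace Cfsg.Agent.Lib.OddGraph

open Function

variable {α : Type*}

/-- all points of `S` are periodic with one odd exponent -/
def OddOn (f : α → α) (S : Finset α) : Prop := ∃ M : ℕ, Odd M ∧ ∀ a ∈ S, f^[M] a = a

lemma iter_congr {f g : α → α} {S : Finset α} (hfg : ∀ a ∈ S, f a = g a) (hg : ∀ a ∈ S, g a ∈ S) :
    ∀ (k : ℕ) (a : α), a ∈ S → f^[k] a = g^[k] a := by
  intro k
  induction k with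
  | zero => intro a _; rfl
  | succ k ih =>
    intro a ha
    rw [iterate_succ_apply, iterate_succ_apply, hfg a ha, ih _ (hg a ha)]

lemma OddOn.congr {f g : α → α} {S : Finset α} (hfg : ∀ a ∈ S, f a = g a) (hg : ∀ a ∈ S, g a ∈ S)
    (h : OddOn g S) : OddOn f S := by
  obtain ⟨M, hM, h⟩ := h
  exact ⟨M, hM, fun a ha => by rw [iter_congr hfg hg M a ha, h a ha]⟩

lemma OddOn.mono {f : α → α} {S T : Finset α} (h : OddOn f S) (hT : T ⊆ S) : OddOn f T := by
  obtain ⟨M, hM, h⟩ := h
  exact ⟨M, hM, fun a ha => h a (hT ha)⟩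

lemma iter_mul_fixed {f : α → α} {a : α} (M N : ℕ) (h : f^[M] a = a) : f^[M * N] a = a := by
  rw [iterate_mul]
  exact iterate_fixed h N

lemma OddOn.union [DecidableEq α] {f : α → α} {S T : Finset α} (h : OddOn f S) (h' : OddOn f T) :
    OddOn f (S ∪ T) := by
  obtain ⟨M, hM, h⟩ := h
  obtain ⟨N, hN, h'⟩ := h'
  refine ⟨M * N, hM.mul hN, fun a ha => ?_⟩
  rcases Finset.mem_union.1 ha with ha | ha
  · exact iter_mul_fixed _ _ (h a ha)
  · rw [mul_comm]; exact iter_mul_fixed _ _ (h' a ha)

lemma OddOn.of_fixed {f : α → α} {S : Finset α} (h : ∀ a ∈ S, f a = a) : OddOn f S :=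
  ⟨1, odd_one, fun a ha => by simpa using h a ha⟩

lemma iter_iter_fixed {T : α → α} {q : α} {M : ℕ} (h : T^[M] q = q) (n : ℕ) :
    T^[M] (T^[n] q) = T^[n] q := by
  rw [← iterate_add_apply, add_comm, iterate_add_apply, h]

/-- a point and its image under an involution have the same periods for `f ∘ h` -/
lemma iter_image_fixed {f h : α → α} (hf : ∀ a, f (f a) = a) (hh : ∀ a, h (h a) = a) {b : α} {M : ℕ}
    (hb : (f ∘ h)^[M] b = b) : (f ∘ h)^[M] (f b) = f b := by
  have h1 : Semiconj f (h ∘ f) (f ∘ h) := fun a => by simp [hf]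
  have h2 : ∀ (k : ℕ) (a : α), (h ∘ f)^[k] ((f ∘ h)^[k] a) = a := by
    intro k
    induction k with
    | zero => intro a; rfl
    | succ k ih =>
      intro a
      rw [iterate_succ_apply, iterate_succ_apply']
      simp only [comp_apply, hf, hh]
      exact ih a
  have h3 := h1.iterate_right M b
  rw [← h3]
  congr 1
  have := h2 M b
  rwa [hb] at this

open Classical in
/-- a solution on the invariant set `S` -/
structure Sol (x y : α → α) (S : Finset α) (z : α → α) : Prop where
  inv : ∀ a, z (z a) = a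
  off : ∀ a, a ∉ S → z a = a
  cnt : (S.filter fun a => z a = a).card = (S.filter fun a => x a = a).card
  odd1 : OddOn (x ∘ z) S
  odd2 : OddOn (y ∘ z) S

/-- the flag: some point of `S` where `z` agrees with `x` -/
def Flag (x : α → α) (S : Finset α) (z : α → α) : Prop := ∃ e ∈ S, z e = x e

lemma Sol.mem {x y z : α → α} {S : Finset α} (h : Sol x y S z) {a : α} (ha : a ∈ S) : z a ∈ S := by
  by_contra hc
  have h1 := h.off _ hc
  rw [h.inv a] at h1
  exact hc (by rw [← h1]; exact ha)

section union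

open Classical

lemma Sol.union {x y z₁ z₂ : α → α} {S T : Finset α} (h₁ : Sol x y S z₁) (h₂ : Sol x y T z₂)
    (hd : Disjoint S T) (hxS : ∀ a ∈ S, x a ∈ S) (hyS : ∀ a ∈ S, y a ∈ S)
    (hxT : ∀ a ∈ T, x a ∈ T) (hyT : ∀ a ∈ T, y a ∈ T) :
    Sol x y (S ∪ T) (fun a => if a ∈ S then z₁ a else z₂ a) := by
  have hnS : ∀ a, a ∉ S → z₂ a ∉ S := by
    intro a ha
    by_cases hT : a ∈ T
    · exact Finset.disjoint_right.1 hd (h₂.mem hT)
    · rw [h₂.off a hT]; exact ha
  refine ⟨?_, ?_, ?_, ?_, ?_⟩
  · intro a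
    by_cases ha : a ∈ S
    · simp [ha, h₁.mem ha, h₁.inv]
    · simp [ha, hnS a ha, h₂.inv]
  · intro a ha
    have h1 : a ∉ S := fun h => ha (Finset.mem_union_left _ h)
    have h2 : a ∉ T := fun h => ha (Finset.mem_union_right _ h)
    simp [h1, h₂.off a h2]
  · rw [Finset.filter_union, Finset.filter_union, Finset.card_union_of_disjoint, Finset.card_union_of_disjoint]
    · congr 1
      · rw [← h₁.cnt]
        congr 1
        apply Finset.filter_congr
        intro a ha
        simp [ha]
      · rw [← h₂.cnt]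
        congr 1
        apply Finset.filter_congr
        intro a ha
        have : a ∉ S := Finset.disjoint_right.1 hd ha
        simp [this]
    · exact Finset.disjoint_filter_filter hd
    · exact Finset.disjoint_filter_filter hd
  · refine OddOn.union (OddOn.congr (g := x ∘ z₁) ?_ ?_ h₁.odd1) (OddOn.congr (g := x ∘ z₂) ?_ ?_ h₂.odd1)
    · intro a ha; simp [ha]
    · intro a ha; exact hxS _ (h₁.mem ha)
    · intro a ha
      have : a ∉ S := Finset.disjoint_right.1 hd ha
      simp [this]
    · intro a ha; exact hxT _ (h₂.mem ha)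
  · refine OddOn.union (OddOn.congr (g := y ∘ z₁) ?_ ?_ h₁.odd2) (OddOn.congr (g := y ∘ z₂) ?_ ?_ h₂.odd2)
    · intro a ha; simp [ha]
    · intro a ha; exact hyS _ (h₁.mem ha)
    · intro a ha
      have : a ∉ S := Finset.disjoint_right.1 hd ha
      simp [this]
    · intro a ha; exact hyT _ (h₂.mem ha)

lemma Flag.union_left {x z₁ z₂ : α → α} {S T : Finset α} (h : Flag x S z₁) :
    Flag x (S ∪ T) (fun a => if a ∈ S then z₁ a else z₂ a) := by
  obtain ⟨e, he, h⟩ := h
  exact ⟨e, Finset.mem_union_left _ he, by simp [he, h]⟩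

lemma Flag.union_right {x z₁ z₂ : α → α} {S T : Finset α} (hd : Disjoint S T) (h : Flag x T z₂) :
    Flag x (S ∪ T) (fun a => if a ∈ S then z₁ a else z₂ a) := by
  obtain ⟨e, he, h⟩ := h
  have : e ∉ S := Finset.disjoint_right.1 hd he
  exact ⟨e, Finset.mem_union_right _ he, by simp [this, h]⟩

/-- solution on the empty set -/
lemma sol_empty (x y : α → α) : Sol x y ∅ id :=
  ⟨fun _ => rfl, fun _ _ => rfl, by simp, ⟨1, odd_one, by simp⟩, ⟨1, odd_one, by simp⟩⟩

/-- copy of `x` on an invariant set on which `y x` has odd periods -/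
lemma sol_copy {x y : α → α} {S : Finset α} (hx : ∀ a, x (x a) = a) (hxS : ∀ a ∈ S, x a ∈ S)
    (hyS : ∀ a ∈ S, y a ∈ S) (h : OddOn (y ∘ x) S) :
    Sol x y S (fun a => if a ∈ S then x a else a) := by
  refine ⟨?_, ?_, ?_, ?_, ?_⟩
  · intro a
    by_cases ha : a ∈ S
    · simp [ha, hxS a ha, hx]
    · simp [ha]
  · intro a ha; simp [ha]
  · congr 1
    apply Finset.filter_congr
    intro a ha
    simp [ha]
  · apply OddOn.of_fixed
    intro a ha
    simp [ha, hx]
  · refine OddOn.congr (g := y ∘ x) ?_ ?_ h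
    · intro a ha; simp [ha]
    · intro a ha; exact hyS _ (hxS _ ha)

lemma flag_copy {x : α → α} {S : Finset α} (hS : S.Nonempty) :
    Flag x S (fun a => if a ∈ S then x a else a) := by
  obtain ⟨e, he⟩ := hS
  exact ⟨e, he, by simp [he]⟩

end union

/-- insertion of two new points into a cycle -/
lemma ins2 [DecidableEq α] {T T' : α → α} {S : Finset α} {q u v : α} (hq : q ∈ S) (hu : u ∉ S) (hv : v ∉ S)
    (hT : ∀ a ∈ S, T a ∈ S) (h : OddOn T S)
    (h1 : T' q = u) (h2 : T' u = v) (h3 : T' v = T q) (h4 : ∀ b ∈ S, b ≠ q → T' b = T b) :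
    OddOn T' (insert u (insert v S)) := by
  obtain ⟨M, hM, hper⟩ := h
  have hqM : IsPeriodicPt T M q := hper q hq
  set L := minimalPeriod T q with hL
  have hLdvd : L ∣ M := hqM.minimalPeriod_dvd
  have hLodd : Odd L := hM.of_dvd_nat hLdvd
  have hLpos : 0 < L := hLodd.pos
  have hmemit : ∀ (i : ℕ) (b : α), b ∈ S → T^[i] b ∈ S := by
    intro i
    induction i with
    | zero => intro b hb; exact hb
    | succ i ih => intro b hb; rw [iterate_succ_apply]; exact ih _ (hT _ hb)
  -- the new orbit of `q`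
  have hit : ∀ i : ℕ, i + 1 ≤ L → T'^[3 + i] q = T^[i + 1] q := by
    intro i
    induction i with
    | zero =>
      intro _
      simp only [Nat.add_zero, iterate_succ_apply, iterate_zero, id]
      rw [h1, h2, h3]
    | succ i ih =>
      intro hi
      have h5 := ih (by omega)
      rw [show 3 + (i + 1) = (3 + i) + 1 by ring, iterate_succ_apply', h5, h4 _ (hmemit _ _ hq)]
      · rw [← iterate_succ_apply' T (i + 1) q]
      · intro hc
        have : IsPeriodicPt T (i + 1) q := hc
        have := this.minimalPeriod_le (by omega)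
        omega
  have hclose : T'^[L + 2] q = q := by
    obtain ⟨i, hi⟩ : ∃ i, L = i + 1 := ⟨L - 1, by omega⟩
    have := hit i (by omega)
    rw [show L + 2 = 3 + i by omega, this, ← hi]
    exact isPeriodicPt_minimalPeriod T q
  -- points of the old orbit and new points
  have hpt : ∀ (n : ℕ), T'^[L + 2] (T'^[n] q) = T'^[n] q := fun n => iter_iter_fixed hclose n
  refine ⟨M * (L + 2), hM.mul (hLodd.add_even even_two), ?_⟩
  have hu' : T'^[1] q = u := by simpa using h1
  have hv' : T'^[2] q = v := by simp [iterate_succ_apply, h1, h2]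
  intro b hb
  rw [mul_comm]
  rcases Finset.mem_insert.1 hb with rfl | hb
  · exact iter_mul_fixed _ _ (by rw [← hu']; exact hpt 1)
  rcases Finset.mem_insert.1 hb with rfl | hb
  · exact iter_mul_fixed _ _ (by rw [← hv']; exact hpt 2)
  rw [mul_comm]
  by_cases horb : ∃ i : ℕ, T^[i] q = b
  · obtain ⟨i, rfl⟩ := horb
    rw [mul_comm]
    apply iter_mul_fixed
    obtain ⟨j, hj, hj2⟩ : ∃ j, j + 1 ≤ L ∧ T^[j + 1] q = T^[i] q := by
      have hmod : T^[i % L] q = T^[i] q := iterate_mod_minimalPeriod_eq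
      by_cases h0 : i % L = 0
      · refine ⟨L - 1, by omega, ?_⟩
        rw [show L - 1 + 1 = L by omega, ← hmod, h0]
        exact isPeriodicPt_minimalPeriod T q
      · refine ⟨i % L - 1, ?_, ?_⟩
        · have := Nat.mod_lt i hLpos
          omega
        · rw [show i % L - 1 + 1 = i % L by omega, hmod]
    rw [← hj2, ← hit j hj]
    exact hpt _
  · -- the `T`-orbit of `b` avoids `q`
    apply iter_mul_fixed
    have hne : ∀ j : ℕ, T^[j] b ≠ q := by
      intro j hj
      apply horb
      refine ⟨M * (j + 1) - j, ?_⟩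
      have h6 : M * (j + 1) = (M * (j + 1) - j) + j := by
        have : j + 1 ≤ M * (j + 1) := Nat.le_mul_of_pos_left _ hM.pos
        omega
      have h7 : T^[M * (j + 1)] b = b := iter_mul_fixed _ _ (hper b hb)
      rw [h6, iterate_add_apply, hj] at h7
      exact h7
    have hst : ∀ (k : ℕ), T'^[k] b = T^[k] b := by
      intro k
      induction k with
      | zero => rfl
      | succ k ih =>
        rw [iterate_succ_apply', iterate_succ_apply', ih, h4 _ (hmemit _ _ hb) (hne k)]
    rw [hst, hper b hb]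

end Cfsg.Agent.Lib.OddGraph
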