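import Cfsg.Agent.Lib.OddGraph.Path

/-! Even cycles of two involutions. -/

set_option autoImplicit false

namespace Cfsg.Agent.Lib.OddGraph

open Function Equiv

variable {α : Type*} [Fintype α]

open Classical

/-- abstract data of a cycle -/
structure CycData (x y : α → α) (e f : ℤ → α) (m : ℕ) : Prop where
  xe : ∀ k, x (e k) = f k
  xf : ∀ k, x (f k) = e k
  yf : ∀ k, y (f k) = e (k + 1)
  ye : ∀ k, y (e k) = f (k - 1)
  ee : ∀ i j, e i = e j ↔ (m : ℤ) ∣ i - j
  ff : ∀ i j, f i = f j ↔ (m : ℤ) ∣ i - j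
  ef : ∀ i j, e i ≠ f j

/-- the points of a cycle -/
noncomputable def cyc (e f : ℤ → α) : Finset α := Finset.univ.filter fun b => ∃ k, b = e k ∨ b = f k

lemma mem_cyc {e f : ℤ → α} {b : α} : b ∈ cyc e f ↔ ∃ k, b = e k ∨ b = f k := by simp [cyc]

lemma not_dvd_of {m : ℕ} {d : ℤ} (h0 : 0 < d) (h1 : d < m) : ¬ (m : ℤ) ∣ d := by
  intro h
  have := Int.le_of_dvd h0 h
  omega

lemma not_dvd_of' {m : ℕ} {d : ℤ} (h0 : d < 0) (h1 : -d < m) : ¬ (m : ℤ) ∣ d := by
  intro h
  have h2 : (m : ℤ) ∣ -d := (dvd_neg).2 h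
  have := Int.le_of_dvd (by omega) h2
  omega

section

variable {x y : α → α} {e f : ℤ → α} {m : ℕ} (D : CycData x y e f m)

include D

lemma CycData.x_mem {b : α} (hb : b ∈ cyc e f) : x b ∈ cyc e f := by
  obtain ⟨k, rfl | rfl⟩ := mem_cyc.1 hb
  · exact mem_cyc.2 ⟨k, Or.inr (D.xe k)⟩
  · exact mem_cyc.2 ⟨k, Or.inl (D.xf k)⟩

lemma CycData.y_mem {b : α} (hb : b ∈ cyc e f) : y b ∈ cyc e f := by
  obtain ⟨k, rfl | rfl⟩ := mem_cyc.1 hb
  · exact mem_cyc.2 ⟨k - 1, Or.inr (D.ye k)⟩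
  · exact mem_cyc.2 ⟨k + 1, Or.inl (D.yf k)⟩

lemma CycData.x_ne {b : α} (hb : b ∈ cyc e f) : x b ≠ b := by
  obtain ⟨k, rfl | rfl⟩ := mem_cyc.1 hb
  · rw [D.xe]; exact (D.ef k k).symm
  · rw [D.xf]; exact D.ef k k

lemma CycData.y_ne {b : α} (hb : b ∈ cyc e f) : y b ≠ b := by
  obtain ⟨k, rfl | rfl⟩ := mem_cyc.1 hb
  · rw [D.ye]; exact (D.ef k (k - 1)).symm
  · rw [D.yf]; exact D.ef (k + 1) k

lemma CycData.e_idx (hm : 0 < m) (k : ℤ) : ∃ n : ℕ, n < m ∧ e k = e n := by
  refine ⟨(k % m).toNat, ?_, ?_⟩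
  · have h1 : k % m < m := Int.emod_lt_of_pos _ (by exact_mod_cast hm)
    have h2 : 0 ≤ k % m := Int.emod_nonneg _ (by exact_mod_cast hm.ne')
    omega
  · rw [D.ee]
    have h2 : 0 ≤ k % m := Int.emod_nonneg _ (by exact_mod_cast hm.ne')
    rw [Int.toNat_of_nonneg h2]
    exact Int.dvd_self_sub_emod

lemma CycData.f_idx (hm : 0 < m) (k : ℤ) : ∃ n : ℕ, n < m ∧ f k = f n := by
  refine ⟨(k % m).toNat, ?_, ?_⟩
  · have h1 : k % m < m := Int.emod_lt_of_pos _ (by exact_mod_cast hm)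
    have h2 : 0 ≤ k % m := Int.emod_nonneg _ (by exact_mod_cast hm.ne')
    omega
  · rw [D.ff]
    have h2 : 0 ≤ k % m := Int.emod_nonneg _ (by exact_mod_cast hm.ne')
    rw [Int.toNat_of_nonneg h2]
    exact Int.dvd_self_sub_emod

/-- the solution on an even cycle of length `2 m`, `m ≥ 4` -/
lemma sol_cycle (hx : ∀ a, x (x a) = a) (hy : ∀ a, y (y a) = a) (hm : Even m) (hm4 : 4 ≤ m) :
    ∃ z : α → α, Sol x y (cyc e f) z ∧ Flag x (cyc e f) z := by
  have nd : ∀ d : ℤ, 0 < d → d < m → ¬ (m : ℤ) ∣ d := fun d h0 h1 => not_dvd_of h0 h1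
  have nd' : ∀ d : ℤ, d < 0 → -d < m → ¬ (m : ℤ) ∣ d := fun d h0 h1 => not_dvd_of' h0 h1
  have hm4' : (4 : ℤ) ≤ m := by exact_mod_cast hm4
  have e12 : e 1 ≠ e 2 := fun h => nd' _ (by norm_num) (by norm_num; omega) ((D.ee 1 2).1 h)
  have e13 : e 1 ≠ e 3 := fun h => nd' _ (by norm_num) (by norm_num; omega) ((D.ee 1 3).1 h)
  have e23 : e 2 ≠ e 3 := fun h => nd' _ (by norm_num) (by norm_num; omega) ((D.ee 2 3).1 h)
  have f12 : f 1 ≠ f 2 := fun h => nd' _ (by norm_num) (by norm_num; omega) ((D.ff 1 2).1 h)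
  have f13 : f 1 ≠ f 3 := fun h => nd' _ (by norm_num) (by norm_num; omega) ((D.ff 1 3).1 h)
  have f23 : f 2 ≠ f 3 := fun h => nd' _ (by norm_num) (by norm_num; omega) ((D.ff 2 3).1 h)
  have ef := D.ef
  let C := cyc e f
  let z : α → α := fun b =>
    if b = e 1 then e 3 else if b = e 3 then e 1 else if b = f 1 then e 2 else if b = e 2 then f 1
    else if b = f 2 then f 3 else if b = f 3 then f 2 else if b ∈ C then x b else b
  have z1 : z (e 1) = e 3 := by simp [z]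
  have z2 : z (e 3) = e 1 := by simp [z, e13.symm]
  have z3 : z (f 1) = e 2 := by simp [z, (ef 1 1).symm, (ef 3 1).symm]
  have z4 : z (e 2) = f 1 := by simp [z, e12.symm, e23, ef 2 1]
  have z5 : z (f 2) = f 3 := by simp [z, (ef 1 2).symm, (ef 3 2).symm, f12.symm, (ef 2 2).symm]
  have z6 : z (f 3) = f 2 := by
    simp [z, (ef 1 3).symm, (ef 3 3).symm, f13.symm, (ef 2 3).symm, f23.symm]
  have zn : ∀ b, b ∈ C → b ≠ e 1 → b ≠ e 3 → b ≠ f 1 → b ≠ e 2 → b ≠ f 2 → b ≠ f 3 → z b = x b := by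
    intro b hb h1 h2 h3 h4 h5 h6
    simp [z, h1, h2, h3, h4, h5, h6, hb]
  have zoff : ∀ b, b ∉ C → z b = b := by
    intro b hb
    have hs : ∀ k, b ≠ e k ∧ b ≠ f k := by
      intro k
      exact ⟨fun h => hb (mem_cyc.2 ⟨k, Or.inl h⟩), fun h => hb (mem_cyc.2 ⟨k, Or.inr h⟩)⟩
    simp [z, (hs 1).1, (hs 3).1, (hs 1).2, (hs 2).1, (hs 2).2, (hs 3).2, hb]
  have me : ∀ k, e k ∈ C := fun k => mem_cyc.2 ⟨k, Or.inl rfl⟩
  have mf : ∀ k, f k ∈ C := fun k => mem_cyc.2 ⟨k, Or.inr rfl⟩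
  -- generic non-special
  have ze : ∀ k : ℤ, ¬ (m : ℤ) ∣ k - 1 → ¬ (m : ℤ) ∣ k - 2 → ¬ (m : ℤ) ∣ k - 3 → z (e k) = f k := by
    intro k h1 h2 h3
    rw [zn _ (me k) (fun h => h1 ((D.ee _ _).1 h)) (fun h => h3 ((D.ee _ _).1 h)) (ef _ _)
      (fun h => h2 ((D.ee _ _).1 h)) (ef _ _) (ef _ _), D.xe]
  have zf : ∀ k : ℤ, ¬ (m : ℤ) ∣ k - 1 → ¬ (m : ℤ) ∣ k - 2 → ¬ (m : ℤ) ∣ k - 3 → z (f k) = e k := by
    intro k h1 h2 h3
    rw [zn _ (mf k) (ef _ _).symm (ef _ _).symm (fun h => h1 ((D.ff _ _).1 h)) (ef _ _).symm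
      (fun h => h2 ((D.ff _ _).1 h)) (fun h => h3 ((D.ff _ _).1 h)), D.xf]
  have zinv : ∀ a, z (z a) = a := by
    intro b
    by_cases hb : b ∈ C
    · by_cases h1 : b = e 1
      · rw [h1, z1, z2]
      by_cases h2 : b = e 3
      · rw [h2, z2, z1]
      by_cases h3 : b = f 1
      · rw [h3, z3, z4]
      by_cases h4 : b = e 2
      · rw [h4, z4, z3]
      by_cases h5 : b = f 2
      · rw [h5, z5, z6]
      by_cases h6 : b = f 3
      · rw [h6, z6, z5]
      rw [zn b hb h1 h2 h3 h4 h5 h6]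
      have hxm : x b ∈ C := D.x_mem hb
      rw [zn (x b) hxm, hx]
      · intro h; apply h3; rw [← hx b, h, D.xe]
      · intro h; apply h6; rw [← hx b, h, D.xe]
      · intro h; apply h1; rw [← hx b, h, D.xf]
      · intro h; apply h5; rw [← hx b, h, D.xe]
      · intro h; apply h4; rw [← hx b, h, D.xf]
      · intro h; apply h2; rw [← hx b, h, D.xf]
    · rw [zoff b hb, zoff b hb]
  have znefix : ∀ b ∈ C, z b ≠ b := by
    intro b hb
    by_cases h1 : b = e 1
    · rw [h1, z1]; exact e13.symm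
    by_cases h2 : b = e 3
    · rw [h2, z2]; exact e13
    by_cases h3 : b = f 1
    · rw [h3, z3]; exact ef _ _
    by_cases h4 : b = e 2
    · rw [h4, z4]; exact (ef _ _).symm
    by_cases h5 : b = f 2
    · rw [h5, z5]; exact f23.symm
    by_cases h6 : b = f 3
    · rw [h6, z6]; exact f23
    rw [zn b hb h1 h2 h3 h4 h5 h6]
    exact D.x_ne hb
  have e0n : ¬ (m : ℤ) ∣ (0 : ℤ) - 1 ∧ ¬ (m : ℤ) ∣ (0 : ℤ) - 2 ∧ ¬ (m : ℤ) ∣ (0 : ℤ) - 3 :=
    ⟨nd' _ (by norm_num) (by norm_num; omega), nd' _ (by norm_num) (by norm_num; omega),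
      nd' _ (by norm_num) (by norm_num; omega)⟩
  refine ⟨z, ⟨zinv, zoff, ?_, ?_, ?_⟩, ⟨e 0, me 0, ?_⟩⟩
  · rw [Finset.filter_false_of_mem (fun b hb => znefix b hb),
      Finset.filter_false_of_mem (fun b hb => D.x_ne hb)]
  · -- order 3
    refine ⟨3, by decide, ?_⟩
    set T := x ∘ z with hT
    have t1 : T (e 1) = f 3 := by simp [hT, z1, D.xe]
    have t2 : T (f 3) = e 2 := by simp [hT, z6, D.xf]
    have t3 : T (e 2) = e 1 := by simp [hT, z4, D.xf]
    have t4 : T (f 1) = f 2 := by simp [hT, z3, D.xe]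
    have t5 : T (f 2) = e 3 := by simp [hT, z5, D.xf]
    have t6 : T (e 3) = f 1 := by simp [hT, z2, D.xe]
    intro b hb
    have h3 : T^[3] b = T (T (T b)) := rfl
    rw [h3]
    by_cases h1 : b = e 1
    · rw [h1, t1, t2, t3]
    by_cases h2 : b = e 3
    · rw [h2, t6, t4, t5]
    by_cases h3 : b = f 1
    · rw [h3, t4, t5, t6]
    by_cases h4 : b = e 2
    · rw [h4, t3, t1, t2]
    by_cases h5 : b = f 2
    · rw [h5, t5, t6, t4]
    by_cases h6 : b = f 3
    · rw [h6, t2, t3, t1]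
    have : T b = b := by simp [hT, zn b hb h1 h2 h3 h4 h5 h6, hx]
    rw [this, this, this]
  · -- order `m - 1`
    set T := y ∘ z with hT
    have s0 : T (e 0) = e 1 := by
      simp only [hT, comp_apply]
      rw [ze 0 e0n.1 e0n.2.1 e0n.2.2, D.yf]
      norm_num
    have s1 : T (e 1) = f 2 := by
      simp only [hT, comp_apply]
      rw [z1, D.ye]
      norm_num
    have s2 : T (f 2) = e 4 := by
      simp only [hT, comp_apply]
      rw [z5, D.yf]
      norm_num
    have sk : ∀ k : ℤ, ¬ (m : ℤ) ∣ k - 1 → ¬ (m : ℤ) ∣ k - 2 → ¬ (m : ℤ) ∣ k - 3 → T (e k) = e (k + 1) := by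
      intro k h1 h2 h3
      simp only [hT, comp_apply]
      rw [ze k h1 h2 h3, D.yf]
    have sfix1 : T (e 2) = e 2 := by
      simp only [hT, comp_apply]
      rw [z4, D.yf]
      norm_num
    have sfix2 : T (f 1) = f 1 := by
      simp only [hT, comp_apply]
      rw [z3, D.ye]
      norm_num
    have hit : ∀ n : ℕ, 3 ≤ n → n + 1 ≤ m → T^[n] (e 0) = e ((n : ℤ) + 1) := by
      intro n hn
      induction n, hn using Nat.le_induction with
      | base =>
        intro _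
        show T (T (T (e 0))) = _
        rw [s0, s1, s2]
        norm_num
      | succ n hn ih =>
        intro hle
        rw [iterate_succ_apply', ih (by omega)]
        have hn' : (3 : ℤ) ≤ n := by exact_mod_cast hn
        have hle' : (n : ℤ) + 1 + 1 ≤ m := by exact_mod_cast hle
        rw [sk _ (nd _ (by omega) (by omega)) (nd _ (by omega) (by omega)) (nd _ (by omega) (by omega))]
        push_cast
        ring_nf
    obtain ⟨r, hr⟩ := hm
    have hMm : m - 1 + 1 = m := by omega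
    have hclose : T^[m - 1] (e 0) = e 0 := by
      rw [hit (m - 1) (by omega) (by omega)]
      rw [D.ee]
      have : ((m - 1 : ℕ) : ℤ) + 1 - 0 = m := by
        have : ((m - 1 : ℕ) : ℤ) = m - 1 := by omega
        omega
      rw [this]
    have hA : ∀ n : ℕ, T^[m - 1] (T^[n] (e 0)) = T^[n] (e 0) := fun n => iter_iter_fixed hclose n
    have hB : ∀ b : α, T^[m - 1] b = b → T^[m - 1] (y b) = y b := fun b hb =>
      iter_image_fixed hy zinv hb
    have hE : ∀ n : ℕ, n < m → T^[m - 1] (e n) = e n := by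
      intro n hn
      rcases n with _ | _ | _ | _ | n
      · exact hclose
      · have := hA 1
        simp only [iterate_one, s0] at this
        simpa using this
      · exact iterate_fixed (by simpa using sfix1) _
      · have h1 := hB _ (hA 2)
        have h2 : T^[2] (e 0) = f 2 := by
          show T (T (e 0)) = _
          rw [s0, s1]
        rw [h2, D.yf] at h1
        norm_num at h1
        simpa using h1
      · have h1 := hA (n + 3)
        rw [hit (n + 3) (by omega) (by omega)] at h1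
        push_cast at h1 ⊢
        ring_nf at h1 ⊢
        exact h1
    have hF : ∀ n : ℕ, n < m → T^[m - 1] (f n) = f n := by
      intro n hn
      rcases n with _ | _ | _ | _ | n
      · have h1 := hB _ (hA 1)
        have h2 : T^[1] (e 0) = e 1 := by simpa using s0
        rw [h2, D.ye] at h1
        norm_num at h1
        simpa using h1
      · exact iterate_fixed (by simpa using sfix2) _
      · have h1 := hA 2
        have h2 : T^[2] (e 0) = f 2 := by
          show T (T (e 0)) = _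
          rw [s0, s1]
        rw [h2] at h1
        simpa using h1
      · have h1 := hB _ (hA 3)
        rw [hit 3 (by omega) (by omega), D.ye] at h1
        norm_num at h1
        simpa using h1
      · have h1 := hB _ (hA (n + 4))
        rw [hit (n + 4) (by omega) (by omega), D.ye] at h1
        push_cast at h1 ⊢
        ring_nf at h1 ⊢
        exact h1
    refine ⟨m - 1, ?_, ?_⟩
    · rw [Nat.odd_iff]; omega
    · intro b hb
      obtain ⟨k, rfl | rfl⟩ := mem_cyc.1 hb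
      · obtain ⟨n, hn, hk⟩ := D.e_idx (by omega) k
        rw [hk]
        exact hE n hn
      · obtain ⟨n, hn, hk⟩ := D.f_idx (by omega) k
        rw [hk]
        exact hF n hn
  · rw [ze 0 e0n.1 e0n.2.1 e0n.2.2, D.xe]

end

end Cfsg.Agent.Lib.OddGraph
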