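import Mathlib

/-! Abstract end of the graph argument. -/

set_option autoImplicit false

namespace Cfsg.Agent.Lib.OddGraph

lemma dihedral_conj {G : Type*} [Group G] {x z : G} (hx : x * x = 1) (hz : z * z = 1)
    (h : Odd (orderOf (x * z))) : IsConj x z := by
  obtain ⟨k, hk⟩ := h
  set w := x * z with hw
  have hxi : x⁻¹ = x := inv_eq_of_mul_eq_one_left hx
  have hzi : z⁻¹ = z := inv_eq_of_mul_eq_one_left hz
  have hwi : w⁻¹ = z * x := by rw [hw, mul_inv_rev, hxi, hzi]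
  have hs : SemiconjBy x w⁻¹ w := by
    unfold SemiconjBy
    rw [hwi, hw, mul_assoc]
  have hs2 := hs.pow_right k
  unfold SemiconjBy at hs2
  have h1 : w ^ (2 * k) * w = 1 := by
    rw [← pow_succ, ← hk, pow_orderOf_eq_one]
  have h2 : w ^ (2 * k) = w⁻¹ := eq_inv_of_mul_eq_one_left h1
  rw [isConj_iff]
  refine ⟨w ^ k, ?_⟩
  have h3 : w ^ k * x * (w ^ k)⁻¹ = w ^ k * (x * (w⁻¹) ^ k) := by
    rw [inv_pow, mul_assoc]
  rw [h3, hs2, ← mul_assoc, ← pow_add, ← two_mul, h2, hwi, mul_assoc, hx, mul_one]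

theorem graph_final {G : Type*} [Group G] (t : G)
    (H1 : ∀ u v : G, IsConj t u → IsConj t v → ∃ w, IsConj t w ∧ Odd (orderOf (u * w)) ∧ Odd (orderOf (v * w)))
    (H2 : ∃ y, IsConj t y ∧ t ≠ y ∧ ¬ Odd (orderOf (t * y)) ∧ ¬ Odd (orderOf (y * t))) :
    (SimpleGraph.fromRel fun x y : {x : G // IsConj t x} => Odd (orderOf (x.1 * y.1))).Connected ∧
      (SimpleGraph.fromRel fun x y : {x : G // IsConj t x} => Odd (orderOf (x.1 * y.1))).diam = 2 := by
  let r : {x : G // IsConj t x} → {x : G // IsConj t x} → Prop :=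
    fun x y => Odd (orderOf (x.1 * y.1))
  change (SimpleGraph.fromRel r).Connected ∧ (SimpleGraph.fromRel r).diam = 2
  set Γ := SimpleGraph.fromRel r with hG
  have hadj : ∀ a b, a ≠ b → r a b → Γ.Adj a b := by
    intro a b hab h
    rw [hG, SimpleGraph.fromRel_adj]
    exact ⟨hab, Or.inl h⟩
  have hwalk : ∀ u v, ∃ p : Γ.Walk u v, p.length ≤ 2 := by
    intro u v
    obtain ⟨w, hw, h1, h2⟩ := H1 u.1 v.1 u.2 v.2
    set w' : {x : G // IsConj t x} := ⟨w, hw⟩ with hw'
    by_cases huw : u = w'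
    · by_cases hvw : v = w'
      · rw [huw, hvw]
        exact ⟨SimpleGraph.Walk.nil, by simp⟩
      · have h3 : Γ.Adj v w' := hadj _ _ hvw h2
        rw [huw]
        exact ⟨SimpleGraph.Walk.cons h3.symm SimpleGraph.Walk.nil, by simp⟩
    · have h3 : Γ.Adj u w' := hadj _ _ huw h1
      by_cases hvw : v = w'
      · rw [hvw]
        exact ⟨SimpleGraph.Walk.cons h3 SimpleGraph.Walk.nil, by simp⟩
      · have h4 : Γ.Adj v w' := hadj _ _ hvw h2
        exact ⟨SimpleGraph.Walk.cons h3 (SimpleGraph.Walk.cons h4.symm SimpleGraph.Walk.nil), by simp⟩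
  have hreach : ∀ u v, Γ.Reachable u v := fun u v => by
    obtain ⟨p, _⟩ := hwalk u v
    exact ⟨p⟩
  have hne : Nonempty {x : G // IsConj t x} := ⟨⟨t, IsConj.refl t⟩⟩
  have hconn : Γ.Connected := { preconnected := hreach, nonempty := hne }
  have hed : Γ.ediam ≤ 2 := by
    apply SimpleGraph.ediam_le_of_edist_le
    intro u v
    obtain ⟨p, hp⟩ := hwalk u v
    refine p.edist_le.trans ?_
    exact_mod_cast hp
  have hetop : Γ.ediam ≠ ⊤ := by
    intro h
    rw [h] at hed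
    simp at hed
  refine ⟨hconn, le_antisymm ?_ ?_⟩
  · exact ENat.toNat_le_of_le_natCast hed
  · obtain ⟨y, hy1, hy2, hy3, hy4⟩ := H2
    set u : {x : G // IsConj t x} := ⟨t, IsConj.refl t⟩ with hu
    set v : {x : G // IsConj t x} := ⟨y, hy1⟩ with hv
    have huv : u ≠ v := fun h => hy2 (congrArg Subtype.val h)
    have hnadj : ¬ Γ.Adj u v := by
      rw [hG, SimpleGraph.fromRel_adj]
      rintro ⟨_, h | h⟩
      · exact hy3 h
      · exact hy4 h
    have h1 : Γ.dist u v ≠ 0 := fun h => huv ((hreach u v).dist_eq_zero_iff.1 h)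
    have h2 : Γ.dist u v ≠ 1 := fun h => hnadj (SimpleGraph.dist_eq_one_iff_adj.1 h)
    have h3 := SimpleGraph.dist_le_diam hetop (u := u) (v := v)
    omega

end Cfsg.Agent.Lib.OddGraph
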