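import Cfsg.Agent.Lib.OddGraph.Absorb

/-! The common neighbour of two involutions in a symmetric group. -/

set_option autoImplicit false

namespace Cfsg.Agent.Lib.OddGraph

open Function Equiv

variable {α : Type*} [Fintype α]

open Classical

lemma cycData_of {x y : Perm α} (hx : ∀ a, x (x a) = a) (hy : ∀ a, y (y a) = a) (a : α)
    (hno : ∀ k : ℤ, x (((y * x) ^ k) a) ≠ ((y * x) ^ k) a ∧ y (((y * x) ^ k) a) ≠ ((y * x) ^ k) a) :
    CycData x y (fun k => ((y * x) ^ k) a) (fun k => x (((y * x) ^ k) a)) (MulAction.period (y * x) a) := by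
  have hyf : ∀ k : ℤ, y (x (((y * x) ^ k) a)) = ((y * x) ^ (k + 1)) a := by
    intro k
    rw [add_comm, zpow_one_add, Perm.mul_apply, Perm.mul_apply]
  refine ⟨fun _ => rfl, fun k => hx _, hyf, ?_, fun i j => zpow_eq_iff_dvd, ?_, ?_⟩
  · intro k
    have := hyf (k - 1)
    rw [sub_add_cancel] at this
    rw [← this, hy]
  · intro i j
    rw [x.injective.eq_iff]
    exact zpow_eq_iff_dvd
  · intro i j hij
    set w := y * x with hw
    have h1 : x ((w ^ j) a) = (w ^ (-j)) (x a) := right_zpow hy hx j a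
    rw [h1] at hij
    have h2 : x a = (w ^ (i + j)) a := by
      have := congrArg (w ^ j) hij
      rw [← Perm.mul_apply, ← zpow_add, ← Perm.mul_apply, ← zpow_add] at this
      simp only [add_neg_cancel, zpow_zero, Perm.one_apply] at this
      rw [← this, add_comm]
    rcases Int.even_or_odd' (i + j) with ⟨c, hc | hc⟩
    · apply (hno c).1
      rw [right_zpow hy hx c a, h2, hc, ← Perm.mul_apply, ← zpow_add]
      congr 2
      ring
    · apply (hno (c + 1)).2
      have h3 : y a = w (x a) := by simp [hw, hx]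
      have h4 : w ((w ^ (2 * c + 1)) a) = (w ^ (2 * c + 1 + 1)) a := by
        have h6 : w ^ (2 * c + 1 + 1) = w * w ^ (2 * c + 1) := by rw [add_comm (2 * c + 1) 1, zpow_one_add]
        rw [h6]
        rfl
      have h5 : y ((w ^ (c + 1)) a) = (w ^ (-(c + 1))) (y a) := left_zpow hy hx (c + 1) a
      rw [h5, h3, h2, hc, h4, ← Perm.mul_apply, ← zpow_add]
      congr 2
      ring

lemma zpow_mem {f g : Perm α} (hf : ∀ a, f (f a) = a) (hg : ∀ a, g (g a) = a) {S : Finset α}
    (hfS : ∀ t ∈ S, f t ∈ S) (hgS : ∀ t ∈ S, g t ∈ S) (k : ℤ) {a : α} (ha : a ∈ S) :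
    ((f * g) ^ k) a ∈ S := by
  induction k using Int.induction_on with
  | zero => simpa using ha
  | succ i ih =>
    rw [add_comm, zpow_one_add, Perm.mul_apply, Perm.mul_apply]
    exact hfS _ (hgS _ ih)
  | pred i ih =>
    rw [sub_eq_add_neg, add_comm, zpow_add, zpow_neg_one, Perm.mul_apply, inv_mul_eq' hf hg,
      Perm.mul_apply]
    exact hgS _ (hfS _ ih)

lemma filter_sdiff_card (P : α → Prop) (S T : Finset α) (h : T ⊆ S) :
    (S.filter P).card = (T.filter P).card + ((S \ T).filter P).card := by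
  rw [← Finset.card_union_of_disjoint, ← Finset.filter_union, Finset.union_sdiff_of_subset h]
  exact Finset.disjoint_filter_filter Finset.disjoint_sdiff

lemma sdiff_inv {x : α → α} (hx : ∀ a, x (x a) = a) {S T : Finset α} (hS : ∀ t ∈ S, x t ∈ S)
    (hT : ∀ t ∈ T, x t ∈ T) : ∀ t ∈ S \ T, x t ∈ S \ T := by
  intro t ht
  have h := Finset.mem_sdiff.1 ht
  refine Finset.mem_sdiff.2 ⟨hS _ h.1, fun hc => h.2 ?_⟩
  have := hT _ hc
  rwa [hx] at this

/-- the outcome of the pairing procedure -/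
def Out (x y : α → α) (S : Finset α) : Prop :=
  ∃ (C₀ : Finset α) (z : α → α), C₀ ⊆ S ∧ (∀ t ∈ C₀, x t ∈ C₀ ∧ y t ∈ C₀) ∧
    (C₀ = ∅ ∨ ∃ a b c d, IsL2 x y a b c d ∧ C₀ = {a, b, c, d}) ∧
    Sol x y (S \ C₀) z ∧ ((S \ C₀).Nonempty → Flag x (S \ C₀) z)

lemma peel {x y : α → α} (hx : ∀ a, x (x a) = a) (hy : ∀ a, y (y a) = a) {S π : Finset α} {zπ : α → α}
    (hπS : π ⊆ S) (hxS : ∀ t ∈ S, x t ∈ S) (hyS : ∀ t ∈ S, y t ∈ S)
    (hxπ : ∀ t ∈ π, x t ∈ π) (hyπ : ∀ t ∈ π, y t ∈ π) (hsol : Sol x y π zπ) (hfl : Flag x π zπ)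
    (hout : Out x y (S \ π)) : Out x y S := by
  obtain ⟨C₀, z, hC, hCinv, hC2, hz, hfl2⟩ := hout
  have hxR : ∀ t ∈ S \ π, x t ∈ S \ π := sdiff_inv hx hxS hxπ
  have hyR : ∀ t ∈ S \ π, y t ∈ S \ π := sdiff_inv hy hyS hyπ
  have hxR2 : ∀ t ∈ (S \ π) \ C₀, x t ∈ (S \ π) \ C₀ := sdiff_inv hx hxR fun t ht => (hCinv t ht).1
  have hyR2 : ∀ t ∈ (S \ π) \ C₀, y t ∈ (S \ π) \ C₀ := sdiff_inv hy hyR fun t ht => (hCinv t ht).2
  have hd : Disjoint π ((S \ π) \ C₀) := by
    rw [Finset.disjoint_left]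
    intro t ht ht2
    exact (Finset.mem_sdiff.1 (Finset.mem_sdiff.1 ht2).1).2 ht
  have he : S \ C₀ = π ∪ ((S \ π) \ C₀) := by
    ext t
    simp only [Finset.mem_sdiff, Finset.mem_union]
    constructor
    · rintro ⟨h1, h2⟩
      by_cases h3 : t ∈ π
      · exact Or.inl h3
      · exact Or.inr ⟨⟨h1, h3⟩, h2⟩
    · rintro (h | ⟨⟨h1, h2⟩, h3⟩)
      · refine ⟨hπS h, fun h3 => ?_⟩
        exact (Finset.mem_sdiff.1 (hC h3)).2 h
      · exact ⟨h1, h3⟩
  refine ⟨C₀, fun t => if t ∈ π then zπ t else z t, fun t ht => (Finset.mem_sdiff.1 (hC ht)).1, hCinv, hC2, ?_, ?_⟩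
  · rw [he]
    exact Sol.union hsol hz hd hxπ hyπ hxR2 hyR2
  · intro _
    rw [he]
    exact Flag.union_left hfl

lemma even_of_noodd {V : Perm α} {a : α} (h : ∀ M : ℕ, Odd M → (V ^ M) a ≠ a) : Even (MulAction.period V a) := by
  by_contra hc
  rw [Nat.not_even_iff_odd] at hc
  exact h _ hc ((per_iff_nat V a _).2 dvd_rfl)

lemma l2_of {x y : α → α} {e f : ℤ → α} (D : CycData x y e f 2) : IsL2 x y (e 0) (f 0) (e 1) (f 1) := by
  have h2 : ¬ (2 : ℤ) ∣ 1 := by norm_num
  refine ⟨D.xe 0, D.xe 1, by rw [D.yf]; norm_num, by rw [D.yf, D.ee]; norm_num, D.ef _ _, ?_, D.ef _ _,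
    (D.ef _ _).symm, ?_, D.ef _ _⟩
  · intro h
    have := (D.ee _ _).1 h
    push_cast at this
  · intro h
    have := (D.ff _ _).1 h
    push_cast at this

lemma cyc_eq_of_two {x y : α → α} {e f : ℤ → α} (D : CycData x y e f 2) : cyc e f = {e 0, f 0, e 1, f 1} := by
  ext b
  simp only [Finset.mem_insert, Finset.mem_singleton]
  rw [mem_cyc]
  constructor
  · rintro ⟨k, rfl | rfl⟩
    · rcases Int.even_or_odd' k with ⟨c, hc | hc⟩
      · left
        rw [D.ee]
        exact ⟨c, by push_cast; rw [hc]; ring⟩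
      · right; right; left
        rw [D.ee]
        exact ⟨c, by push_cast; rw [hc]; ring⟩
    · rcases Int.even_or_odd' k with ⟨c, hc | hc⟩
      · right; left
        rw [D.ff]
        exact ⟨c, by push_cast; rw [hc]; ring⟩
      · right; right; right
        rw [D.ff]
        exact ⟨c, by push_cast; rw [hc]; ring⟩
  · rintro (rfl | rfl | rfl | rfl)
    · exact ⟨0, Or.inl rfl⟩
    · exact ⟨0, Or.inr rfl⟩
    · exact ⟨1, Or.inl rfl⟩
    · exact ⟨1, Or.inr rfl⟩

/-- the pairing procedure -/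
theorem pair_main {x y : Perm α} (hx : ∀ a, x (x a) = a) (hy : ∀ a, y (y a) = a) :
    ∀ (n : ℕ) (S : Finset α), S.card = n → (∀ t ∈ S, x t ∈ S) → (∀ t ∈ S, y t ∈ S) →
      (∀ a ∈ S, ∀ M : ℕ, Odd M → ((y * x) ^ M) a ≠ a) →
      (S.filter fun t => x t = t).card = (S.filter fun t => y t = t).card → Out x y S := by
  intro n
  induction n using Nat.strong_induction_on with
  | _ n ih =>
  intro S hn hxS hyS hev hcnt
  -- the general step
  have hstep : ∀ (π : Finset α) (zπ : α → α), π ⊆ S → π.Nonempty → (∀ t ∈ π, x t ∈ π) → (∀ t ∈ π, y t ∈ π) →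
      Sol x y π zπ → Flag x π zπ → (π.filter fun t => x t = t).card = (π.filter fun t => y t = t).card →
      Out x y S := by
    intro π zπ hπS hπne hxπ hyπ hsol hfl hc
    refine peel hx hy hπS hxS hyS hxπ hyπ hsol hfl (ih _ ?_ _ rfl (sdiff_inv hx hxS hxπ) (sdiff_inv hy hyS hyπ)
      (fun a ha => hev a (Finset.mem_sdiff.1 ha).1) ?_)
    · rw [← hn, Finset.card_sdiff_of_subset hπS]
      have h1 := Finset.card_pos.2 hπne
      have h2 := Finset.card_le_card hπS
      omega
    · have h1 := filter_sdiff_card (fun t => x t = t) S π hπS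
      have h2 := filter_sdiff_card (fun t => y t = t) S π hπS
      omega
  have hmemorb : ∀ {f g : Perm α}, (∀ a, f (f a) = a) → (∀ a, g (g a) = a) → (∀ t ∈ S, f t ∈ S) → (∀ t ∈ S, g t ∈ S) →
      ∀ {a : α}, a ∈ S → orb (f * g) a ⊆ S := by
    intro f g hf hg hfS hgS a ha b hb
    obtain ⟨k, rfl⟩ := mem_orb.1 hb
    exact zpow_mem hf hg hfS hgS k ha
  have hyxinv : (y * x)⁻¹ = x * y := inv_mul_eq' hy hx
  have hevV : ∀ a ∈ S, Even (MulAction.period (y * x) a) := fun a ha => even_of_noodd (hev a ha)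
  have hevV' : ∀ a ∈ S, Even (MulAction.period (x * y) a) := by
    intro a ha
    rw [← hyxinv, MulAction.period_inv]
    exact hevV a ha
  by_cases hfixany : ∃ t ∈ S, x t = t ∨ y t = t
  · -- a pair of paths
    obtain ⟨p, q, hpS, hqS, hyp, hxq⟩ : ∃ p q, p ∈ S ∧ q ∈ S ∧ y p = p ∧ x q = q := by
      obtain ⟨t, ht, h | h⟩ := hfixany
      · have h1 : 0 < (S.filter fun t => y t = t).card := by
          rw [← hcnt]
          exact Finset.card_pos.2 ⟨t, Finset.mem_filter.2 ⟨ht, h⟩⟩
        obtain ⟨p, hp⟩ := Finset.card_pos.1 h1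
        have := Finset.mem_filter.1 hp
        exact ⟨p, t, this.1, ht, this.2, h⟩
      · have h1 : 0 < (S.filter fun t => x t = t).card := by
          rw [hcnt]
          exact Finset.card_pos.2 ⟨t, Finset.mem_filter.2 ⟨ht, h⟩⟩
        obtain ⟨q, hq⟩ := Finset.card_pos.1 h1
        have := Finset.mem_filter.1 hq
        exact ⟨t, q, ht, this.1, h, this.2⟩
    have hne : q ∉ orb (x * y) p := fun hc => f_no_fix hx hy hyp (hevV' p hpS) hc hxq
    obtain ⟨z, hz, hfl, hc, hd⟩ := sol_pair hx hy hyp hxq (hevV' p hpS) (hevV q hqS) hne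
    refine hstep _ z ?_ ⟨p, Finset.mem_union_left _ (self_mem_orb _ _)⟩ ?_ ?_ hz hfl hc
    · exact Finset.union_subset (hmemorb hx hy hxS hyS hpS) (hmemorb hy hx hyS hxS hqS)
    · intro t ht
      rcases Finset.mem_union.1 ht with ht | ht
      · exact Finset.mem_union_left _ (f_mem hx hy hyp ht)
      · exact Finset.mem_union_right _ (g_mem hy hx hxq ht)
    · intro t ht
      rcases Finset.mem_union.1 ht with ht | ht
      · exact Finset.mem_union_left _ (g_mem hx hy hyp ht)
      · exact Finset.mem_union_right _ (f_mem hy hx hxq ht)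
  · push Not at hfixany
    have hcD : ∀ a ∈ S, CycData x y (fun k => ((y * x) ^ k) a) (fun k => x (((y * x) ^ k) a))
        (MulAction.period (y * x) a) := by
      intro a ha
      refine cycData_of hx hy a fun k => ?_
      exact hfixany _ (zpow_mem hy hx hyS hxS k ha)
    have hcycS : ∀ a ∈ S, cyc (fun k => ((y * x) ^ k) a) (fun k => x (((y * x) ^ k) a)) ⊆ S := by
      intro a ha b hb
      obtain ⟨k, rfl | rfl⟩ := mem_cyc.1 hb
      · exact zpow_mem hy hx hyS hxS k ha
      · exact hxS _ (zpow_mem hy hx hyS hxS k ha)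
    have hcount0 : ∀ {π : Finset α}, π ⊆ S →
        (π.filter fun t => x t = t).card = (π.filter fun t => y t = t).card := by
      intro π hπ
      rw [Finset.filter_false_of_mem (fun t ht => (hfixany t (hπ ht)).1),
        Finset.filter_false_of_mem (fun t ht => (hfixany t (hπ ht)).2)]
    have hmemcyc : ∀ a, a ∈ cyc (fun k => ((y * x) ^ k) a) (fun k => x (((y * x) ^ k) a)) := fun a =>
      mem_cyc.2 ⟨0, Or.inl (by simp)⟩
    -- a long cycle at `a`
    have hlong : ∀ a ∈ S, 4 ≤ MulAction.period (y * x) a → Out x y S := by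
      intro a ha h4
      have D := hcD a ha
      obtain ⟨z, hz, hfl⟩ := sol_cycle D hx hy (hevV a ha) h4
      exact hstep _ z (hcycS a ha) ⟨a, hmemcyc a⟩ (fun t ht => D.x_mem ht) (fun t ht => D.y_mem ht) hz hfl
        (hcount0 (hcycS a ha))
    have htwo : ∀ a ∈ S, ¬ 4 ≤ MulAction.period (y * x) a → MulAction.period (y * x) a = 2 := by
      intro a ha h4
      have h1 := period_pos' (y * x) a
      obtain ⟨r, hr⟩ := hevV a ha
      omega
    rcases S.eq_empty_or_nonempty with rfl | ⟨a, ha⟩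
    · exact ⟨∅, id, by simp, by simp, Or.inl rfl, by simpa using sol_empty x y, by simp⟩
    by_cases h4 : 4 ≤ MulAction.period (y * x) a
    · exact hlong a ha h4
    have h2 := htwo a ha h4
    have D := hcD a ha
    rw [h2] at D
    have L := l2_of D
    have hC := cyc_eq_of_two D
    set C₁ := cyc (fun k => ((y * x) ^ k) a) (fun k => x (((y * x) ^ k) a)) with hC₁
    have hC₁S : C₁ ⊆ S := hcycS a ha
    by_cases hrest : (S \ C₁).Nonempty
    · obtain ⟨a', ha'⟩ := hrest
      have ha'S := (Finset.mem_sdiff.1 ha').1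
      have ha'C := (Finset.mem_sdiff.1 ha').2
      by_cases h4' : 4 ≤ MulAction.period (y * x) a'
      · exact hlong a' ha'S h4'
      have h2' := htwo a' ha'S h4'
      have D' := hcD a' ha'S
      rw [h2'] at D'
      have L' := l2_of D'
      have hC' := cyc_eq_of_two D'
      set C₂ := cyc (fun k => ((y * x) ^ k) a') (fun k => x (((y * x) ^ k) a')) with hC₂
      have hC₂S : C₂ ⊆ S := hcycS a' ha'S
      have hdisj : Disjoint C₁ C₂ := by
        rw [Finset.disjoint_right]
        intro t ht ht1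
        apply ha'C
        obtain ⟨k, rfl | rfl⟩ := mem_cyc.1 ht
        · have h5 := zpow_mem hy hx (fun t ht => D.y_mem ht) (fun t ht => D.x_mem ht) (-k) ht1
          rw [← Perm.mul_apply, ← zpow_add] at h5
          simpa using h5
        · have h6 := D.x_mem ht1
          simp only [hx] at h6
          have h5 := zpow_mem hy hx (fun t ht => D.y_mem ht) (fun t ht => D.x_mem ht) (-k) h6
          rw [← Perm.mul_apply, ← zpow_add] at h5
          simpa using h5
      obtain ⟨z, hz, hfl⟩ := sol_l2_pair hx hy L L' (by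
        intro s hs t ht hst
        rw [← hC] at hs
        rw [← hC'] at ht
        exact Finset.disjoint_left.1 hdisj hs (hst ▸ ht))
      rw [← hC, ← hC'] at hz hfl
      refine hstep _ z (Finset.union_subset hC₁S hC₂S) ⟨a, Finset.mem_union_left _ (hmemcyc a)⟩ ?_ ?_ hz hfl
        (hcount0 (Finset.union_subset hC₁S hC₂S))
      · intro t ht
        rcases Finset.mem_union.1 ht with ht | ht
        · exact Finset.mem_union_left _ (D.x_mem ht)
        · exact Finset.mem_union_right _ (D'.x_mem ht)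
      · intro t ht
        rcases Finset.mem_union.1 ht with ht | ht
        · exact Finset.mem_union_left _ (D.y_mem ht)
        · exact Finset.mem_union_right _ (D'.y_mem ht)
    · rw [Finset.not_nonempty_iff_eq_empty] at hrest
      refine ⟨C₁, id, hC₁S, fun t ht => ⟨D.x_mem ht, D.y_mem ht⟩, Or.inr ⟨_, _, _, _, L, hC⟩, ?_, ?_⟩
      · rw [hrest]
        exact sol_empty _ _
      · rw [hrest]
        simp

end Cfsg.Agent.Lib.OddGraph
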