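import Cfsg.Agent.Lib.OddGraph.Main

/-! The common neighbour of two involutions in a symmetric group. -/

set_option autoImplicit false

namespace Cfsg.Agent.Lib.OddGraph

open Function Equiv

variable {α : Type*} [Fintype α]

open Classical

lemma fix_neg {w : Perm α} {b : α} {k : ℕ} (h : (w ^ (-(k : ℤ))) b = b) : (w ^ k) b = b := by
  rw [per_iff, dvd_neg] at h
  rw [per_iff_nat]
  exact_mod_cast h

theorem common_nb {x y : Perm α} (hx : ∀ a, x (x a) = a) (hy : ∀ a, y (y a) = a)
    (hcnt : (Finset.univ.filter fun t => x t = t).card = (Finset.univ.filter fun t => y t = t).card)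
    (h5 : 5 ≤ Fintype.card α) :
    ∃ z : α → α, (∀ t, z (z t) = t) ∧
      (Finset.univ.filter fun t => z t = t).card = (Finset.univ.filter fun t => x t = t).card ∧
      OddOn (x ∘ z) Finset.univ ∧ OddOn (y ∘ z) Finset.univ := by
  set w := y * x with hw
  obtain ⟨e, M₀, hM₀, hord⟩ := Nat.exists_eq_two_pow_mul_odd (orderOf_pos w).ne'
  let S₁ : Finset α := Finset.univ.filter fun t => (w ^ M₀) t = t
  have hS₁ : ∀ t, t ∈ S₁ ↔ (w ^ M₀) t = t := fun t => by simp [S₁]
  have hper : ∀ t ∈ S₁, (MulAction.period w t : ℤ) ∣ (M₀ : ℤ) := by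
    intro t ht
    have := (per_iff_nat w t M₀).1 ((hS₁ t).1 ht)
    exact_mod_cast this
  have hxS₁ : ∀ t ∈ S₁, x t ∈ S₁ := by
    intro t ht
    rw [hS₁] at ht ⊢
    apply fix_neg
    have h1 : x ((w ^ (M₀ : ℤ)) t) = (w ^ (-(M₀ : ℤ))) (x t) := right_zpow hy hx _ t
    rw [zpow_natCast, ht] at h1
    exact h1.symm
  have hyS₁ : ∀ t ∈ S₁, y t ∈ S₁ := by
    intro t ht
    rw [hS₁] at ht ⊢
    apply fix_neg
    have h1 : y ((w ^ (M₀ : ℤ)) t) = (w ^ (-(M₀ : ℤ))) (y t) := left_zpow hy hx _ t
    rw [zpow_natCast, ht] at h1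
    exact h1.symm
  have hoddS₁ : OddOn (y ∘ x) S₁ := by
    refine ⟨M₀, hM₀, fun t ht => ?_⟩
    have h1 : ((y : α → α) ∘ x) = w := by rw [hw, Perm.coe_mul]
    rw [h1, Perm.iterate_eq_pow]
    exact (hS₁ t).1 ht
  let S₂ : Finset α := Finset.univ \ S₁
  have hS₂ : ∀ t, t ∈ S₂ ↔ t ∉ S₁ := fun t => by simp [S₂]
  have hev : ∀ a ∈ S₂, ∀ M : ℕ, Odd M → ((y * x) ^ M) a ≠ a := by
    intro a ha M hM hc
    apply (hS₂ a).1 ha
    rw [hS₁, per_iff_nat]
    have h1 := (per_iff_nat _ _ _).1 hc
    have h2 : Odd (MulAction.period w a) := hM.of_dvd_nat h1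
    have h3 := MulAction.period_dvd_orderOf w a
    rw [hord] at h3
    have h4 : Nat.Coprime (MulAction.period w a) (2 ^ e) :=
      Nat.Coprime.pow_right _ (h2.coprime_two_right)
    exact h4.dvd_of_dvd_mul_left h3
  have hxS₂ : ∀ t ∈ S₂, x t ∈ S₂ := by
    intro t ht
    rw [hS₂] at ht ⊢
    intro h
    have := hxS₁ _ h
    rw [hx] at this
    exact ht this
  have hyS₂ : ∀ t ∈ S₂, y t ∈ S₂ := by
    intro t ht
    rw [hS₂] at ht ⊢
    intro h
    have := hyS₁ _ h
    rw [hy] at this
    exact ht this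
  -- counting on `S₁`
  obtain ⟨E, hE⟩ : ∃ E : ℕ, 2 * E = M₀ + 1 := by
    obtain ⟨c, hc⟩ := hM₀
    exact ⟨c + 1, by omega⟩
  have hwmem : ∀ (k : ℤ) (t : α), t ∈ S₁ → (w ^ k) t ∈ S₁ := by
    intro k t ht
    exact zpow_mem hy hx hyS₁ hxS₁ k ht
  have hcntS₁ : (S₁.filter fun t => x t = t).card = (S₁.filter fun t => y t = t).card := by
    apply Finset.card_nbij' (fun t => (w ^ (E : ℤ)) t) (fun t => (w ^ (-(E : ℤ))) t)
    · intro t ht
      simp only [Finset.coe_filter, Set.mem_ofPred_eq] at ht ⊢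
      refine ⟨hwmem _ _ ht.1, ?_⟩
      have h1 : y ((w ^ (E : ℤ)) t) = (w ^ (-(E : ℤ))) (y t) := left_zpow hy hx _ t
      have h2 : y t = (w ^ (1 : ℤ)) t := by
        rw [zpow_one, hw, Perm.mul_apply, ht.2]
      rw [h1, h2, ← Perm.mul_apply, ← zpow_add]
      apply zpow_apply_eq_of_dvd
      have h3 := hper t ht.1
      have h4 : -(E : ℤ) + 1 - E = -(M₀ : ℤ) := by
        have : (2 : ℤ) * E = M₀ + 1 := by exact_mod_cast hE
        omega
      rw [h4]
      exact (dvd_neg).2 h3
    · intro t ht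
      simp only [Finset.coe_filter, Set.mem_ofPred_eq] at ht ⊢
      refine ⟨hwmem _ _ ht.1, ?_⟩
      have h1 : x ((w ^ (-(E : ℤ))) t) = (w ^ (- -(E : ℤ))) (x t) := right_zpow hy hx _ t
      have h2 : x t = (w ^ (-1 : ℤ)) t := by
        rw [zpow_neg_one, hw, inv_mul_eq' hy hx, Perm.mul_apply, ht.2]
      rw [h1, h2, ← Perm.mul_apply, ← zpow_add]
      apply zpow_apply_eq_of_dvd
      have h3 := hper t ht.1
      have h4 : - -(E : ℤ) + -1 - -(E : ℤ) = (M₀ : ℤ) := by
        have : (2 : ℤ) * E = M₀ + 1 := by exact_mod_cast hE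
        omega
      rw [h4]
      exact h3
    · intro t _
      simp only
      rw [← Perm.mul_apply, ← zpow_add]
      simp
    · intro t _
      simp only
      rw [← Perm.mul_apply, ← zpow_add]
      simp
  have hcntS₂ : (S₂.filter fun t => x t = t).card = (S₂.filter fun t => y t = t).card := by
    have h1 := filter_sdiff_card (fun t => x t = t) Finset.univ S₁ (Finset.subset_univ _)
    have h2 := filter_sdiff_card (fun t => y t = t) Finset.univ S₁ (Finset.subset_univ _)
    have h3 : S₂ = Finset.univ \ S₁ := rfl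
    rw [h3]
    omega
  obtain ⟨C₀, z₂, hC, hCinv, hC2, hz₂, hfl₂⟩ := pair_main hx hy _ S₂ rfl hxS₂ hyS₂ hev hcntS₂
  have hsolc := sol_copy (x := x) (y := y) (S := S₁) hx hxS₁ hyS₁ hoddS₁
  set zc : α → α := fun a => if a ∈ S₁ then x a else a with hzc
  have hd : Disjoint S₁ (S₂ \ C₀) := by
    rw [Finset.disjoint_left]
    intro t ht ht2
    exact (hS₂ t).1 (Finset.mem_sdiff.1 ht2).1 ht
  have hxR : ∀ t ∈ S₂ \ C₀, x t ∈ S₂ \ C₀ := sdiff_inv hx hxS₂ fun t ht => (hCinv t ht).1
  have hyR : ∀ t ∈ S₂ \ C₀, y t ∈ S₂ \ C₀ := sdiff_inv hy hyS₂ fun t ht => (hCinv t ht).2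
  have hU := Sol.union hsolc hz₂ hd hxS₁ hyS₁ hxR hyR
  set z : α → α := fun a => if a ∈ S₁ then zc a else z₂ a with hz
  set U := S₁ ∪ (S₂ \ C₀) with hUdef
  have hUC : ∀ t, t ∉ U → t ∈ C₀ := by
    intro t ht
    by_contra hc
    apply ht
    by_cases h1 : t ∈ S₁
    · exact Finset.mem_union_left _ h1
    · exact Finset.mem_union_right _ (Finset.mem_sdiff.2 ⟨(hS₂ t).2 h1, hc⟩)
  have hCU : ∀ t ∈ C₀, t ∉ U := by
    intro t ht ht2
    have h3 := hC ht
    rcases Finset.mem_union.1 ht2 with h | h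
    · exact (hS₂ t).1 h3 h
    · exact (Finset.mem_sdiff.1 h).2 ht
  have hfinal : ∃ z' : α → α, Sol x y Finset.univ z' := by
    rcases hC2 with rfl | ⟨a, b, c, d, L, rfl⟩
    · refine ⟨z, ?_⟩
      have : U = Finset.univ := by
        ext t
        simp only [Finset.mem_univ, iff_true]
        by_contra hc
        exact absurd (hUC t hc) (by simp)
      rwa [this] at hU
    · have hxU : ∀ t ∈ U, x t ∈ U := by
        intro t ht
        rcases Finset.mem_union.1 ht with h | h
        · exact Finset.mem_union_left _ (hxS₁ _ h)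
        · exact Finset.mem_union_right _ (hxR _ h)
      have hyU : ∀ t ∈ U, y t ∈ U := by
        intro t ht
        rcases Finset.mem_union.1 ht with h | h
        · exact Finset.mem_union_left _ (hyS₁ _ h)
        · exact Finset.mem_union_right _ (hyR _ h)
      have haU := hCU a (by simp)
      have hbU := hCU b (by simp)
      have hcU := hCU c (by simp)
      have hdU := hCU d (by simp)
      have hne : U.Nonempty := by
        by_contra hc
        rw [Finset.not_nonempty_iff_eq_empty] at hc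
        have h6 : (Finset.univ : Finset α) ⊆ {a, b, c, d} := by
          intro t _
          by_contra h7
          have := hCU
          by_cases h8 : t ∈ U
          · rw [hc] at h8; simp at h8
          · exact h7 (hUC t h8)
        have h7 := Finset.card_le_card h6
        rw [Finset.card_univ] at h7
        have h8 : ({a, b, c, d} : Finset α).card ≤ 4 := Finset.card_le_four
        omega
      have hfl : Flag x U z := by
        by_cases h1 : S₁.Nonempty
        · exact Flag.union_left (flag_copy h1)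
        · rw [Finset.not_nonempty_iff_eq_empty] at h1
          have h2 : (S₂ \ ({a, b, c, d} : Finset α)).Nonempty := by
            obtain ⟨t, ht⟩ := hne
            rcases Finset.mem_union.1 ht with h | h
            · rw [h1] at h; simp at h
            · exact ⟨t, h⟩
          exact Flag.union_right hd (hfl₂ h2)
      obtain ⟨e', heU, hze⟩ := hfl
      have huniv : U ∪ {a, b, c, d} = Finset.univ := by
        ext t
        simp only [Finset.mem_union, Finset.mem_univ, iff_true]
        by_cases h : t ∈ U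
        · exact Or.inl h
        · exact Or.inr (hUC t h)
      by_cases hxe : x e' = e'
      · obtain ⟨z', hz'⟩ := absorb_fix (x := x) (y := y) (z := z) hx hy L hU hxU hyU haU hbU hcU hdU heU hxe
          (by rw [hze, hxe])
        rw [huniv] at hz'
        exact ⟨z', hz'⟩
      · obtain ⟨z', hz'⟩ := absorb_edge (x := x) (y := y) (z := z) hx hy L hU hxU hyU haU hbU hcU hdU heU hxe hze
        rw [huniv] at hz'
        exact ⟨z', hz'⟩
  obtain ⟨z', hz'⟩ := hfinal
  exact ⟨z', hz'.inv, hz'.cnt, hz'.odd1, hz'.odd2⟩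

lemma fix_card_conj {u v : Perm α} (h : IsConj u v) :
    (Finset.univ.filter fun t => u t = t).card = (Finset.univ.filter fun t => v t = t).card := by
  obtain ⟨c, rfl⟩ := isConj_iff.1 h
  apply Finset.card_nbij' (fun t => c t) (fun t => c⁻¹ t)
  · intro t ht
    simp only [Finset.coe_filter, Finset.mem_univ, true_and, Set.mem_ofPred_eq] at ht ⊢
    simp [ht]
  · intro t ht
    simp only [Finset.coe_filter, Finset.mem_univ, true_and, Set.mem_ofPred_eq] at ht ⊢
    have h1 : c (u (c⁻¹ t)) = t := by simpa using ht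
    have h2 : u (c⁻¹ t) = c⁻¹ t := by
      apply c.injective
      rw [h1]
      simp
    exact h2
  · intro t _
    simp
  · intro t _
    simp

lemma cycleType_of_inv {u : Perm α} (hu : ∀ a, u (u a) = a) :
    u.cycleType = Multiset.replicate (u.support.card / 2) 2 := by
  have h1 : u ^ 2 = 1 := by
    ext a
    simp [pow_two, hu]
  have h2 : ∀ n ∈ u.cycleType, n = 2 := by
    intro n hn
    have h3 := Perm.dvd_of_mem_cycleType hn
    have h4 : orderOf u ∣ 2 := orderOf_dvd_of_pow_eq_one h1
    have h5 := Perm.two_le_of_mem_cycleType hn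
    have h6 := Nat.le_of_dvd (by norm_num) (h3.trans h4)
    omega
  have h3 : u.cycleType = Multiset.replicate (Multiset.card u.cycleType) 2 :=
    Multiset.eq_replicate.2 ⟨rfl, h2⟩
  have h4 := Perm.sum_cycleType u
  rw [h3, Multiset.sum_replicate, smul_eq_mul] at h4
  have h5 : Multiset.card u.cycleType = u.support.card / 2 := by omega
  rw [← h5]
  exact h3

lemma isConj_of_fix {u v : Perm α} (hu : ∀ a, u (u a) = a) (hv : ∀ a, v (v a) = a)
    (h : (Finset.univ.filter fun t => u t = t).card = (Finset.univ.filter fun t => v t = t).card) : IsConj u v := by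
  rw [Perm.isConj_iff_cycleType_eq, cycleType_of_inv hu, cycleType_of_inv hv]
  have h1 : ∀ w : Perm α, w.support.card + (Finset.univ.filter fun t => w t = t).card = Fintype.card α := by
    intro w
    have h2 : w.support = Finset.univ.filter fun t => ¬ w t = t := by
      ext a
      simp
    rw [h2, add_comm, ← Finset.card_univ]
    exact Finset.card_filter_add_card_filter_not _
  have h3 := h1 u
  have h4 := h1 v
  have h5 : u.support.card = v.support.card := by omega
  rw [h5]

lemma odd_order_of_oddOn {g : Perm α} (h : OddOn g Finset.univ) : Odd (orderOf g) := by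
  obtain ⟨M, hM, h⟩ := h
  refine hM.of_dvd_nat (orderOf_dvd_of_pow_eq_one ?_)
  ext a
  rw [← Perm.iterate_eq_pow]
  simpa using h a (Finset.mem_univ a)

lemma not_odd_of_swap {g : Perm α} {a d : α} (h1 : g a = d) (h2 : g d = a) (hne : d ≠ a) : ¬ Odd (orderOf g) := by
  intro hodd
  have h3 : (g ^ 2) a = a := by
    rw [pow_two, Perm.mul_apply, h1, h2]
  have h4 := (per_iff_nat g a 2).1 h3
  have h5 := MulAction.period_dvd_orderOf g a
  have h6 : Odd (MulAction.period g a) := hodd.of_dvd_nat h5
  have h7 : MulAction.period g a = 1 :=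
    Nat.Coprime.eq_one_of_dvd (h6.coprime_two_right) h4
  have h8 := MulAction.period_eq_one_iff.1 h7
  rw [Perm.smul_def, h1] at h8
  exact hne h8

end Cfsg.Agent.Lib.OddGraph
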