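import Cfsg.Agent.Lib.OddGraph.QSum
import Cfsg.Agent.Lib.OddGraph.Final
import Cfsg.Agent.Lib.Classical.PSL2Klein

/-! The odd product graph on the involutions of `PSL₂`: matrices. -/

set_option autoImplicit false
set_option linter.unusedSectionVars false

namespace Cfsg.Agent.Lib.OddGraph

open Matrix
open Cfsg.Agent.Lib.Classical.P2

variable {F : Type*} [Field F] [Fintype F]

local notation "SL₂" => Matrix.SpecialLinearGroup (Fin 2) F
local notation "PSL₂" => Matrix.ProjectiveSpecialLinearGroup (Fin 2) F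

/-- the image of `g` -/
abbrev pj (g : SL₂) : PSL₂ := (QuotientGroup.mk g : PSL₂)

lemma pj_mul (g h : SL₂) : pj (g * h) = pj g * pj h := rfl

/-- an element of even order has an involution among its powers -/
lemma exists_power (g : SL₂) (hg : ¬ Odd (orderOf (pj g))) :
    ∃ h : SL₂, Commute g h ∧ pj h ≠ 1 ∧ pj h * pj h = 1 := by
  classical
  haveI : Finite SL₂ := Subtype.finite
  have hpos : 0 < orderOf (pj g) := orderOf_pos _
  rw [Nat.not_odd_iff_even] at hg
  obtain ⟨k, hk⟩ := hg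
  refine ⟨g ^ k, (Commute.refl g).pow_right k, ?_, ?_⟩
  · have h1 : pj (g ^ k) = pj g ^ k := rfl
    rw [h1]
    exact pow_ne_one_of_lt_orderOf (by omega) (by omega)
  · have h1 : pj (g ^ k) = pj g ^ k := rfl
    rw [h1, ← pow_add, ← hk]
    exact pow_orderOf_eq_one _

lemma scalar_case (h2 : (2 : F) ≠ 0) (g : SL₂) (h01 : g.1 0 1 = 0) (h10 : g.1 1 0 = 0) (h00 : g.1 0 0 = g.1 1 1) :
    pj g = 1 := by
  have hd := det_eq g
  rw [h01, h10, ← h00] at hd
  rw [QuotientGroup.eq_one_iff, mem_center_iff' h2]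
  have h6 : (g.1 0 0 - 1) * (g.1 0 0 + 1) = 0 := by linear_combination hd
  rcases mul_eq_zero.mp h6 with h7 | h7
  · left
    have h8 : g.1 0 0 = 1 := sub_eq_zero.mp h7
    apply ext2 <;> simp [h8, h01, h10, ← h00]
  · right
    have h8 : g.1 0 0 = -1 := eq_neg_of_add_eq_zero_left h7
    apply ext2 <;> simp [h8, h01, h10, ← h00]

/-- the trace criterion, odd characteristic -/
lemma crit_odd (h2 : (2 : F) ≠ 0) (g : SL₂) (hg : ¬ Odd (orderOf (pj g))) :
    ∃ b : F, b ≠ 0 ∧ (g.1 0 0 + g.1 1 1) ^ 2 - 4 = -4 * b ^ 2 := by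
  obtain ⟨h, hc, h1, h3⟩ := exists_power g hg
  have hI : IsI h := isI_of_mk h2 h3 h1
  have htr := isI_trace h2 hI
  have hd := det_eq h
  have hdg := det_eq g
  obtain ⟨e1, e2, e3, e4⟩ := mul_entries g h
  obtain ⟨e5, e6, e7, e8⟩ := mul_entries h g
  have hcm : g * h = h * g := hc
  rw [hcm] at e1 e2 e3 e4
  rw [e5] at e1
  rw [e6] at e2
  rw [e7] at e3
  rw [e8] at e4
  generalize hα : g.1 0 0 = α at *
  generalize hβ0 : g.1 0 1 = β at *
  generalize hγ0 : g.1 1 0 = γ at *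
  generalize hδ : g.1 1 1 = δ at *
  generalize h.1 0 0 = p at *
  generalize h.1 0 1 = r at *
  generalize h.1 1 0 = u at *
  generalize h.1 1 1 = q at *
  subst htr
  -- relations
  have r1 : β * u = r * γ := by linear_combination -e1
  have r2 : r * (α - δ) = 2 * p * β := by linear_combination -e2
  have r3 : 2 * p * γ = u * (α - δ) := by linear_combination -e3
  have hd' : p ^ 2 + r * u = -1 := by linear_combination -hd
  have hex : ∃ b : F, (α - δ) = 2 * b * p ∧ β = b * r ∧ γ = b * u := by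
    by_cases hr : r = 0
    · subst hr
      by_cases hu : u = 0
      · subst hu
        have hp : p ≠ 0 := by
          rintro rfl
          have : (1 : F) = 0 := by linear_combination hd'
          exact one_ne_zero this
        have hβ : β = 0 := by
          have : 2 * p * β = 0 := by linear_combination -r2
          exact (mul_eq_zero.1 this).resolve_left (mul_ne_zero h2 hp)
        have hγ : γ = 0 := by
          have : 2 * p * γ = 0 := by linear_combination r3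
          exact (mul_eq_zero.1 this).resolve_left (mul_ne_zero h2 hp)
        refine ⟨(α - δ) / (2 * p), ?_, by simp [hβ], by simp [hγ]⟩
        field_simp
      · have hβ : β = 0 := by
          have : β * u = 0 := by linear_combination r1
          exact (mul_eq_zero.1 this).resolve_right hu
        refine ⟨γ / u, ?_, by simp [hβ], by field_simp⟩
        field_simp
        linear_combination -r3
    · refine ⟨β / r, ?_, by field_simp, ?_⟩
      · field_simp
        linear_combination r2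
      · field_simp
        linear_combination -r1
  obtain ⟨b, hb1, hb2, hb3⟩ := hex
  refine ⟨b, ?_, ?_⟩
  · rintro rfl
    apply hg
    have h6 : pj g = 1 := scalar_case h2 g (by rw [hβ0, hb2, zero_mul]) (by rw [hγ0, hb3, zero_mul])
      (by rw [hα, hδ]; linear_combination hb1)
    rw [h6, orderOf_one]
    exact odd_one
  · have h5 : (α + δ) ^ 2 - 4 = (α - δ) ^ 2 + 4 * (β * γ) := by linear_combination 4 * hdg
    rw [h5, hb1, hb2, hb3]
    linear_combination 4 * b ^ 2 * hd'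

/-- the solution `Z` of the trace conditions -/
lemma exists_Z (h2 : (2 : F) ≠ 0) (X Y : SL₂) (hX : X.1 1 1 = - X.1 0 0) (hY : Y.1 1 1 = - Y.1 0 0)
    {c τ₁ τ₂ γ₀ : F} (hc : c = (X * Y).1 0 0 + (X * Y).1 1 1) (hΔ : c ^ 2 ≠ 4)
    (hγ : γ₀ ^ 2 = -(τ₁ ^ 2 + τ₂ ^ 2 + c * τ₁ * τ₂ + c ^ 2 - 4)) :
    ∃ Z : SL₂, Z.1 1 1 = - Z.1 0 0 ∧ (X * Z).1 0 0 + (X * Z).1 1 1 = τ₁ ∧ (Y * Z).1 0 0 + (Y * Z).1 1 1 = τ₂ := by
  have hdX := det_eq X
  have hdY := det_eq Y
  obtain ⟨e1, e2, e3, e4⟩ := mul_entries X Y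
  rw [e1, e4] at hc
  rw [hX] at hdX hc
  rw [hY] at hdY hc
  have hΔ' : (4 - c ^ 2) ≠ 0 := fun h => hΔ (by linear_combination -h)
  generalize hx1 : X.1 0 0 = a at *
  generalize hx2 : X.1 0 1 = b at *
  generalize hx3 : X.1 1 0 = c' at *
  generalize hy1 : Y.1 0 0 = d at *
  generalize hy2 : Y.1 0 1 = e at *
  generalize hy3 : Y.1 1 0 = f at *
  set Δ := 4 - c ^ 2 with hΔdef
  set α := (-2 * τ₁ - c * τ₂) / Δ with hα
  set β := (-c * τ₁ - 2 * τ₂) / Δ with hβ
  set γ := γ₀ / Δ with hγd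
  set W1 := b * f - e * c' with hW1
  set W2 := 2 * a * e - 2 * b * d with hW2
  set W3 := 2 * c' * d - 2 * a * f with hW3
  set z1 := α * a + β * d + γ * W1 with hz1
  set z2 := α * b + β * e + γ * W2 with hz2
  set z3 := α * c' + β * f + γ * W3 with hz3
  have hX2 : a ^ 2 + b * c' = -1 := by linear_combination -hdX
  have hY2 : d ^ 2 + e * f = -1 := by linear_combination -hdY
  have hc' : c = 2 * a * d + b * f + c' * e := by rw [hc]; ring
  have hW : W1 ^ 2 + W2 * W3 = c ^ 2 - 4 := by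
    have h5 : W1 ^ 2 + W2 * W3 = c ^ 2 - 4 * ((a ^ 2 + b * c') * (d ^ 2 + e * f)) := by
      rw [hc', hW1, hW2, hW3]; ring
    rw [h5, hX2, hY2]; ring
  have hZ : z1 ^ 2 + z2 * z3 = -1 := by
    have h5 : z1 ^ 2 + z2 * z3 = α ^ 2 * (a ^ 2 + b * c') + β ^ 2 * (d ^ 2 + e * f) + α * β * c + γ ^ 2 * (W1 ^ 2 + W2 * W3) := by
      rw [hc', hz1, hz2, hz3, hW1, hW2, hW3]; ring
    rw [h5, hX2, hY2, hW]
    have h6 : γ ^ 2 = -(τ₁ ^ 2 + τ₂ ^ 2 + c * τ₁ * τ₂ + c ^ 2 - 4) / Δ ^ 2 := by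
      rw [hγd, div_pow, hγ]
    rw [h6, hα, hβ]
    field_simp
    rw [hΔdef]
    ring
  have hdet : (!![z1, z2; z3, -z1] : Matrix (Fin 2) (Fin 2) F).det = 1 := by
    rw [Matrix.det_fin_two_of]
    linear_combination -hZ
  refine ⟨⟨!![z1, z2; z3, -z1], hdet⟩, rfl, ?_, ?_⟩
  · obtain ⟨e5, _, _, e8⟩ := mul_entries X ⟨!![z1, z2; z3, -z1], hdet⟩
    rw [e5, e8, hX]
    simp only [hx1, hx2, hx3, Matrix.of_apply, Matrix.cons_val', Matrix.cons_val_zero, Matrix.cons_val_one,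
      Matrix.cons_val_fin_one]
    have h5 : a * z1 + b * z3 + (c' * z2 + -a * -z1) = α * (2 * (a ^ 2 + b * c')) + β * c := by
      rw [hc', hz1, hz2, hz3, hW1, hW2, hW3]; ring
    rw [h5, hX2, hα, hβ]
    field_simp
    rw [hΔdef]
    ring
  · obtain ⟨e5, _, _, e8⟩ := mul_entries Y ⟨!![z1, z2; z3, -z1], hdet⟩
    rw [e5, e8, hY]
    simp only [hy1, hy2, hy3, Matrix.of_apply, Matrix.cons_val', Matrix.cons_val_zero, Matrix.cons_val_one,
      Matrix.cons_val_fin_one]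
    have h5 : d * z1 + e * z3 + (f * z2 + -d * -z1) = α * c + β * (2 * (d ^ 2 + e * f)) := by
      rw [hc', hz1, hz2, hz3, hW1, hW2, hW3]; ring
    rw [h5, hY2, hα, hβ]
    field_simp
    rw [hΔdef]
    ring

/-- the common neighbour in odd characteristic -/
lemma core_odd (h2 : (2 : F) ≠ 0) (hq : 4 ≤ Fintype.card F) (u v : PSL₂) (hu : u * u = 1) (hu1 : u ≠ 1)
    (hv : v * v = 1) (hv1 : v ≠ 1) (huv : ¬ Odd (orderOf (u * v))) :
    ∃ w : PSL₂, w * w = 1 ∧ Odd (orderOf (u * w)) ∧ Odd (orderOf (v * w)) := by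
  obtain ⟨X, rfl⟩ := QuotientGroup.mk_surjective u
  obtain ⟨Y, rfl⟩ := QuotientGroup.mk_surjective v
  have hXI : IsI X := isI_of_mk h2 hu hu1
  have hYI : IsI Y := isI_of_mk h2 hv hv1
  have hX := isI_trace h2 hXI
  have hY := isI_trace h2 hYI
  have hchar : ringChar F ≠ 2 := by
    intro h
    apply h2
    have h3 : ((2 : ℕ) : F) = 0 := (ringChar.spec F 2).2 (by rw [h])
    exact_mod_cast h3
  obtain ⟨b₀, hb₀, hc⟩ := crit_odd h2 (X * Y) huv
  set c := (X * Y).1 0 0 + (X * Y).1 1 1 with hcdef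
  have hΔ : c ^ 2 ≠ 4 := by
    intro h
    rw [h, sub_self] at hc
    have h4 : (4 : F) ≠ 0 := by
      have : (4 : F) = 2 * 2 := by norm_num
      rw [this]
      exact mul_ne_zero h2 h2
    have := mul_ne_zero (neg_ne_zero.2 h4) (pow_ne_zero 2 hb₀)
    exact this hc.symm
  have hfinish : ∀ {τ₁ τ₂ γ₀ : F}, γ₀ ^ 2 = -(τ₁ ^ 2 + τ₂ ^ 2 + c * τ₁ * τ₂ + c ^ 2 - 4) →
      (∀ b : F, b ≠ 0 → τ₁ ^ 2 - 4 ≠ -4 * b ^ 2) → (∀ b : F, b ≠ 0 → τ₂ ^ 2 - 4 ≠ -4 * b ^ 2) →
      ∃ w : PSL₂, w * w = 1 ∧ Odd (orderOf (pj X * w)) ∧ Odd (orderOf (pj Y * w)) := by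
    intro τ₁ τ₂ γ₀ hγ h1 h3
    obtain ⟨Z, hZ, hZ1, hZ2⟩ := exists_Z h2 X Y hX hY hcdef hΔ hγ
    have hZI : IsI Z := isI_of_trace hZ
    refine ⟨pj Z, (mk_isI h2 hZI).1, ?_, ?_⟩
    · by_contra hn
      obtain ⟨b, hb, hb2⟩ := crit_odd h2 (X * Z) hn
      rw [hZ1] at hb2
      exact h1 b hb hb2
    · by_contra hn
      obtain ⟨b, hb, hb2⟩ := crit_odd h2 (Y * Z) hn
      rw [hZ2] at hb2
      exact h3 b hb hb2
  by_cases hneg : IsSquare (-1 : F)
  · obtain ⟨i, hi⟩ := hneg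
    refine hfinish (τ₁ := 2) (τ₂ := 2) (γ₀ := i * (c + 2)) ?_ ?_ ?_
    · have : i ^ 2 = -1 := by rw [pow_two]; exact hi.symm
      rw [mul_pow, this]
      ring
    · intro b hb h
      have h4 : (4 : F) ≠ 0 := by
        have : (4 : F) = 2 * 2 := by norm_num
        rw [this]
        exact mul_ne_zero h2 h2
      apply mul_ne_zero (neg_ne_zero.2 h4) (pow_ne_zero 2 hb)
      rw [← h]
      ring
    · intro b hb h
      have h4 : (4 : F) ≠ 0 := by
        have : (4 : F) = 2 * 2 := by norm_num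
        rw [this]
        exact mul_ne_zero h2 h2
      apply mul_ne_zero (neg_ne_zero.2 h4) (pow_ne_zero 2 hb)
      rw [← h]
      ring
  · obtain ⟨s, t, hs, ht, γ₀, hγ₀⟩ := exists_params hchar hneg hq hb₀ hc
    have hsq : ∀ s : F, s ≠ 0 → ∀ b : F, b ≠ 0 → (s + 1 / s) ^ 2 - 4 ≠ -4 * b ^ 2 := by
      intro s hs b hb h
      apply hneg
      refine ⟨(s - 1 / s) / (2 * b), ?_⟩
      have h5 : (s - 1 / s) ^ 2 = -4 * b ^ 2 := by
        rw [← h]
        field_simp
        ring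
      have h6 : (2 * b) * (2 * b) ≠ 0 := mul_ne_zero (mul_ne_zero h2 hb) (mul_ne_zero h2 hb)
      rw [div_mul_div_comm, eq_div_iff h6]
      linear_combination -h5
    refine hfinish (γ₀ := γ₀) ?_ (hsq s hs) (hsq t ht)
    rw [pow_two, ← hγ₀]

/-- a second involution with even product, odd characteristic -/
lemma second_odd (h2 : (2 : F) ≠ 0) (u : PSL₂) (hu : u * u = 1) (hu1 : u ≠ 1) :
    ∃ y : PSL₂, y * y = 1 ∧ y ≠ 1 ∧ u ≠ y ∧ ¬ Odd (orderOf (u * y)) ∧ ¬ Odd (orderOf (y * u)) := by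
  obtain ⟨X, rfl⟩ := QuotientGroup.mk_surjective u
  have hXI : IsI X := isI_of_mk h2 hu hu1
  have hX := isI_trace h2 hXI
  have hdX := det_eq X
  rw [hX] at hdX
  obtain ⟨p, r, s, hpr, htr⟩ : ∃ p r s : F, p ^ 2 + r * s = -1 ∧
      2 * X.1 0 0 * p + X.1 0 1 * s + X.1 1 0 * r = 0 := by
    generalize X.1 0 0 = a at *
    generalize X.1 0 1 = b at *
    generalize X.1 1 0 = c at *
    by_cases hb : b = 0
    · subst hb
      have ha : a ≠ 0 := by
        rintro rfl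
        have : (1 : F) = 0 := by linear_combination -hdX
        exact one_ne_zero this
      refine ⟨-c / (2 * a), 1, -1 - (-c / (2 * a)) ^ 2, by ring, ?_⟩
      field_simp
      ring
    · obtain ⟨A, B, hAB⟩ := exists_sq_add_sq h2 (-b ^ 2)
      refine ⟨(A + a * B) / b, B, -(2 * a * ((A + a * B) / b) + c * B) / b, ?_, ?_⟩
      · have h5 : a ^ 2 + b * c = -1 := by linear_combination -hdX
        field_simp
        have h6 : b * c = -1 - a ^ 2 := by linear_combination h5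
        linear_combination hAB + (-B ^ 2) * h5
      · field_simp
        ring
  have hdet : (!![p, r; s, -p] : Matrix (Fin 2) (Fin 2) F).det = 1 := by
    rw [Matrix.det_fin_two_of]
    linear_combination -hpr
  let Y : SL₂ := ⟨!![p, r; s, -p], hdet⟩
  have hY : Y.1 1 1 = - Y.1 0 0 := rfl
  have hYI : IsI Y := isI_of_trace hY
  have hXY : (X * Y).1 1 1 = - (X * Y).1 0 0 := by
    obtain ⟨e5, _, _, e8⟩ := mul_entries X Y
    rw [e5, e8, hX]
    have e1 : Y.1 0 0 = p := rfl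
    have e2 : Y.1 0 1 = r := rfl
    have e3 : Y.1 1 0 = s := rfl
    have e4 : Y.1 1 1 = -p := rfl
    rw [e1, e2, e3, e4]
    linear_combination htr
  have hYX : (Y * X).1 1 1 = - (Y * X).1 0 0 := by
    obtain ⟨e5, _, _, e8⟩ := mul_entries Y X
    rw [e5, e8, hX]
    have e1 : Y.1 0 0 = p := rfl
    have e2 : Y.1 0 1 = r := rfl
    have e3 : Y.1 1 0 = s := rfl
    have e4 : Y.1 1 1 = -p := rfl
    rw [e1, e2, e3, e4]
    linear_combination htr
  have hne : ¬ (QuotientGroup.mk X : PSL₂) = QuotientGroup.mk Y := by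
    intro h
    rw [mk_eq_iff h2] at h
    have h1 : (Y.1 0 0 * X.1 0 0 + Y.1 0 1 * X.1 1 0) + (Y.1 1 0 * X.1 0 1 + Y.1 1 1 * X.1 1 1) = 0 := by
      rw [hX]
      have e1 : Y.1 0 0 = p := rfl
      have e2 : Y.1 0 1 = r := rfl
      have e3 : Y.1 1 0 = s := rfl
      have e4 : Y.1 1 1 = -p := rfl
      rw [e1, e2, e3, e4]
      linear_combination htr
    have h7 : (2 : F) = 0 := by
      rcases h with h | h
      · rw [h, hX] at h1
        linear_combination -h1 - 2 * hdX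
      · have e1 : Y.1 0 0 = - X.1 0 0 := by rw [h]; simp [Matrix.SpecialLinearGroup.coe_mul, Matrix.mul_apply, Fin.sum_univ_two]
        have e2 : Y.1 0 1 = - X.1 0 1 := by rw [h]; simp [Matrix.SpecialLinearGroup.coe_mul, Matrix.mul_apply, Fin.sum_univ_two]
        have e3 : Y.1 1 0 = - X.1 1 0 := by rw [h]; simp [Matrix.SpecialLinearGroup.coe_mul, Matrix.mul_apply, Fin.sum_univ_two]
        have e4 : Y.1 1 1 = - X.1 1 1 := by rw [h]; simp [Matrix.SpecialLinearGroup.coe_mul, Matrix.mul_apply, Fin.sum_univ_two]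
        rw [e1, e2, e3, e4, hX] at h1
        linear_combination h1 - 2 * hdX
    exact h2 h7
  have hnot2 : ∀ g : SL₂, g.1 1 1 = - g.1 0 0 → ¬ Odd (orderOf (QuotientGroup.mk g : PSL₂)) := by
    intro g hg hodd
    have hI : IsI g := isI_of_trace hg
    obtain ⟨h5, h6⟩ := mk_isI h2 hI
    have h7 : orderOf (QuotientGroup.mk g : PSL₂) = 2 := by
      apply orderOf_eq_prime _ h6
      rw [pow_two]
      exact h5
    rw [h7] at hodd
    exact absurd hodd (by decide)
  exact ⟨QuotientGroup.mk Y, (mk_isI h2 hYI).1, (mk_isI h2 hYI).2, hne, hnot2 _ hXY, hnot2 _ hYX⟩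

section even

variable (h2 : (2 : F) = 0)
include h2

lemma center_even {g : SL₂} (hg : pj g = 1) : g = 1 := by
  have h1 : g ∈ Subgroup.center SL₂ := (QuotientGroup.eq_one_iff g).1 hg
  rw [Matrix.SpecialLinearGroup.mem_center_iff] at h1
  obtain ⟨r, hr, hs⟩ := h1
  simp only [Fintype.card_fin] at hr
  have h3 : (r - 1) ^ 2 = 0 := by linear_combination hr + (1 - r) * h2
  have h4 : r = 1 := sub_eq_zero.1 (pow_eq_zero_iff (by norm_num) |>.1 h3)
  apply Subtype.ext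
  rw [← hs, h4]
  simp

lemma neg_eq_even (a : F) : -a = a := by linear_combination -a * h2

lemma inv_even {g : SL₂} (hg : pj g * pj g = 1) (hg1 : pj g ≠ 1) :
    g * g = 1 ∧ g.1 0 0 + g.1 1 1 = 0 ∧ (g.1 0 1 ≠ 0 ∨ g.1 1 0 ≠ 0) := by
  have h1 : g * g = 1 := center_even h2 hg
  refine ⟨h1, ?_⟩
  obtain ⟨e1, e2, e3, e4⟩ := mul_entries g g
  rw [h1] at e1 e2 e3 e4
  simp at e1 e2 e3 e4
  have hd := det_eq g
  have htr : g.1 0 0 + g.1 1 1 = 0 := by
    have h3 : (g.1 0 0 + g.1 1 1) ^ 2 = 0 := by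
      linear_combination -e1 - e4 + (g.1 0 0 * g.1 1 1 - g.1 0 1 * g.1 1 0 + 1) * h2
    exact pow_eq_zero_iff (by norm_num) |>.1 h3
  refine ⟨htr, ?_⟩
  by_contra hc
  push Not at hc
  apply hg1
  have e5 : g = 1 := by
    have h00 : (g.1 0 0 - 1) ^ 2 = 0 := by
      rw [hc.1] at e1
      linear_combination -e1 + (1 - g.1 0 0) * h2
    have h11 : (g.1 1 1 - 1) ^ 2 = 0 := by
      rw [hc.1] at e4
      linear_combination -e4 + (1 - g.1 1 1) * h2
    have h5 : g.1 0 0 = 1 := sub_eq_zero.1 (pow_eq_zero_iff (by norm_num) |>.1 h00)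
    have h6 : g.1 1 1 = 1 := sub_eq_zero.1 (pow_eq_zero_iff (by norm_num) |>.1 h11)
    apply ext2 <;> simp [h5, h6, hc.1, hc.2]
  rw [e5]
  rfl

/-- the trace criterion, characteristic two -/
lemma crit_even (g : SL₂) (hg : ¬ Odd (orderOf (pj g))) : g.1 0 0 + g.1 1 1 = 0 := by
  obtain ⟨h, hc, h1, h3⟩ := exists_power g hg
  obtain ⟨_, htr, hne⟩ := inv_even h2 h3 h1
  obtain ⟨e1, e2, e3, e4⟩ := mul_entries g h
  obtain ⟨e5, e6, e7, e8⟩ := mul_entries h g
  have hcm : g * h = h * g := hc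
  rw [hcm] at e1 e2 e3 e4
  rw [e6] at e2
  rw [e7] at e3
  have hq : h.1 1 1 = h.1 0 0 := by linear_combination htr - h.1 0 0 * h2
  rw [hq] at e2 e3
  have hfin : g.1 0 0 = g.1 1 1 := by
    rcases hne with h5 | h5
    · have h6 : h.1 0 1 * (g.1 0 0 - g.1 1 1) = 0 := by linear_combination -e2
      exact sub_eq_zero.1 ((mul_eq_zero.1 h6).resolve_left h5)
    · have h6 : h.1 1 0 * (g.1 0 0 - g.1 1 1) = 0 := by linear_combination e3
      exact sub_eq_zero.1 ((mul_eq_zero.1 h6).resolve_left h5)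
  rw [hfin]
  linear_combination g.1 1 1 * h2

lemma tr0_sq (g : SL₂) (htr : g.1 0 0 + g.1 1 1 = 0) : g * g = 1 := by
  obtain ⟨e1, e2, e3, e4⟩ := mul_entries g g
  have hd := det_eq g
  have hq : g.1 1 1 = - g.1 0 0 := by linear_combination htr
  rw [hq] at hd
  have o1 : (1 : SL₂).1 0 0 = 1 := by simp
  have o2 : (1 : SL₂).1 0 1 = 0 := by simp
  have o3 : (1 : SL₂).1 1 0 = 0 := by simp
  have o4 : (1 : SL₂).1 1 1 = 1 := by simp
  apply ext2
  · rw [e1, o1]; linear_combination -hd - h2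
  · rw [e2, o2]; linear_combination g.1 0 1 * htr
  · rw [e3, o3]; linear_combination g.1 1 0 * htr
  · rw [e4, o4]; linear_combination -hd - h2 + (g.1 1 1 - g.1 0 0) * htr

/-- the common neighbour in characteristic two -/
lemma core_even (u v : PSL₂) (hu : u * u = 1) (hu1 : u ≠ 1) (hv : v * v = 1) (hv1 : v ≠ 1) :
    ∃ w : PSL₂, w * w = 1 ∧ Odd (orderOf (u * w)) ∧ Odd (orderOf (v * w)) := by
  obtain ⟨X, rfl⟩ := QuotientGroup.mk_surjective u
  obtain ⟨Y, rfl⟩ := QuotientGroup.mk_surjective v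
  obtain ⟨_, htX, hneX⟩ := inv_even h2 hu hu1
  obtain ⟨_, htY, hneY⟩ := inv_even h2 hv hv1
  have hchar : ringChar F = 2 := CharP.ringChar_of_prime_eq_zero Nat.prime_two (by exact_mod_cast h2)
  obtain ⟨r, s, hr1, hr2⟩ : ∃ r s : F, X.1 0 1 * s + X.1 1 0 * r ≠ 0 ∧ Y.1 0 1 * s + Y.1 1 0 * r ≠ 0 := by
    by_cases c1 : X.1 1 0 ≠ 0 ∧ Y.1 1 0 ≠ 0
    · exact ⟨1, 0, by simpa using c1.1, by simpa using c1.2⟩
    by_cases c2 : X.1 0 1 ≠ 0 ∧ Y.1 0 1 ≠ 0
    · exact ⟨0, 1, by simpa using c2.1, by simpa using c2.2⟩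
    refine ⟨1, 1, ?_, ?_⟩
    · simp only [mul_one]
      by_cases h3 : X.1 1 0 = 0
      · rw [h3, add_zero]
        exact hneX.resolve_right (fun h => h h3)
      · have h4 : Y.1 1 0 = 0 := by
          by_contra h5
          exact c1 ⟨h3, h5⟩
        have h5 : Y.1 0 1 ≠ 0 := hneY.resolve_right (fun h => h h4)
        have h6 : X.1 0 1 = 0 := by
          by_contra h7
          exact c2 ⟨h7, h5⟩
        rw [h6, zero_add]
        exact h3
    · simp only [mul_one]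
      by_cases h3 : Y.1 1 0 = 0
      · rw [h3, add_zero]
        exact hneY.resolve_right (fun h => h h3)
      · have h4 : X.1 1 0 = 0 := by
          by_contra h5
          exact c1 ⟨h5, h3⟩
        have h5 : X.1 0 1 ≠ 0 := hneX.resolve_right (fun h => h h4)
        have h6 : Y.1 0 1 = 0 := by
          by_contra h7
          exact c2 ⟨h5, h7⟩
        rw [h6, zero_add]
        exact h3
  obtain ⟨p, hp⟩ := FiniteField.isSquare_of_char_two hchar (1 + r * s)
  have hdet : (!![p, r; s, p] : Matrix (Fin 2) (Fin 2) F).det = 1 := by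
    rw [Matrix.det_fin_two_of]
    linear_combination -hp
  let Z : SL₂ := ⟨!![p, r; s, p], hdet⟩
  have z1 : Z.1 0 0 = p := rfl
  have z2 : Z.1 0 1 = r := rfl
  have z3 : Z.1 1 0 = s := rfl
  have z4 : Z.1 1 1 = p := rfl
  have htZ : Z.1 0 0 + Z.1 1 1 = 0 := by rw [z1, z4]; linear_combination p * h2
  have hZZ : Z * Z = 1 := tr0_sq h2 Z htZ
  refine ⟨pj Z, ?_, ?_, ?_⟩
  · rw [← pj_mul, hZZ]; rfl
  · by_contra hn
    have h3 := crit_even h2 (X * Z) hn
    obtain ⟨e5, _, _, e8⟩ := mul_entries X Z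
    rw [e5, e8, z1, z2, z3, z4] at h3
    apply hr1
    linear_combination h3 - p * htX
  · by_contra hn
    have h3 := crit_even h2 (Y * Z) hn
    obtain ⟨e5, _, _, e8⟩ := mul_entries Y Z
    rw [e5, e8, z1, z2, z3, z4] at h3
    apply hr2
    linear_combination h3 - p * htY

/-- a second involution with even product, characteristic two -/
lemma second_even (hq : 4 ≤ Fintype.card F) (u : PSL₂) (hu : u * u = 1) (hu1 : u ≠ 1) :
    ∃ y : PSL₂, y * y = 1 ∧ y ≠ 1 ∧ u ≠ y ∧ ¬ Odd (orderOf (u * y)) ∧ ¬ Odd (orderOf (y * u)) := by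
  classical
  obtain ⟨X, rfl⟩ := QuotientGroup.mk_surjective u
  obtain ⟨hXX, htX, hneX⟩ := inv_even h2 hu hu1
  have hd := det_eq X
  obtain ⟨l, hl0, hl1⟩ : ∃ l : F, l ≠ 0 ∧ l ≠ 1 := by
    by_contra hc
    push Not at hc
    have h1 : (Finset.univ : Finset F) ⊆ {0, 1} := by
      intro t _
      by_cases h : t = 0
      · simp [h]
      · simp [hc t h]
    have h3 := Finset.card_le_card h1
    have h4 : ({0, 1} : Finset F).card ≤ 2 := Finset.card_le_two
    rw [Finset.card_univ] at h3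
    omega
  have hqX : X.1 1 1 = - X.1 0 0 := by linear_combination htX
  rw [hqX] at hd
  have hdet : (!![1 + l * (X.1 0 0 + 1), l * X.1 0 1; l * X.1 1 0, 1 + l * (-X.1 0 0 + 1)] :
      Matrix (Fin 2) (Fin 2) F).det = 1 := by
    rw [Matrix.det_fin_two_of]
    linear_combination l ^ 2 * hd + (l + l ^ 2 / 2 * 0 + l ^ 2) * h2 - l ^ 2 * h2 + l ^ 2 * h2
  let Y : SL₂ := ⟨_, hdet⟩
  have y1 : Y.1 0 0 = 1 + l * (X.1 0 0 + 1) := rfl
  have y2 : Y.1 0 1 = l * X.1 0 1 := rfl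
  have y3 : Y.1 1 0 = l * X.1 1 0 := rfl
  have y4 : Y.1 1 1 = 1 + l * (-X.1 0 0 + 1) := rfl
  have htY : Y.1 0 0 + Y.1 1 1 = 0 := by
    rw [y1, y4]
    linear_combination (1 + l) * h2
  have hYY : Y * Y = 1 := tr0_sq h2 Y htY
  have hbc : X.1 0 1 ≠ 0 ∨ X.1 1 0 ≠ 0 := hneX
  have hY1 : Y ≠ 1 := by
    intro h
    rw [h] at y2 y3
    have o2 : (1 : SL₂).1 0 1 = 0 := by simp
    have o3 : (1 : SL₂).1 1 0 = 0 := by simp
    rw [o2] at y2
    rw [o3] at y3
    rcases hbc with h5 | h5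
    · exact (mul_ne_zero hl0 h5) y2.symm
    · exact (mul_ne_zero hl0 h5) y3.symm
  have hYX : Y ≠ X := by
    intro h
    rw [h] at y2 y3
    rcases hbc with h5 | h5
    · apply hl1
      have : (l - 1) * X.1 0 1 = 0 := by linear_combination -y2
      exact sub_eq_zero.1 ((mul_eq_zero.1 this).resolve_right h5)
    · apply hl1
      have : (l - 1) * X.1 1 0 = 0 := by linear_combination -y3
      exact sub_eq_zero.1 ((mul_eq_zero.1 this).resolve_right h5)
  have hXinv : X⁻¹ = X := inv_eq_of_mul_eq_one_left hXX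
  have hYinv : Y⁻¹ = Y := inv_eq_of_mul_eq_one_left hYY
  have hnot : ∀ g : SL₂, g.1 0 0 + g.1 1 1 = 0 → g ≠ 1 → ¬ Odd (orderOf (pj g)) := by
    intro g hg hg1 hodd
    have h5 := tr0_sq h2 g hg
    have h6 : pj g ≠ 1 := fun h => hg1 (center_even h2 h)
    have h7 : orderOf (pj g) = 2 := by
      apply orderOf_eq_prime _ h6
      rw [pow_two, ← pj_mul, h5]
      rfl
    rw [h7] at hodd
    exact absurd hodd (by decide)
  refine ⟨pj Y, ?_, fun h => hY1 (center_even h2 h), ?_, ?_, ?_⟩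
  · rw [← pj_mul, hYY]; rfl
  · intro h
    apply hYX
    have h5 : pj (X⁻¹ * Y) = 1 := by
      have h6 : pj (X⁻¹ * Y) = (pj X)⁻¹ * pj Y := rfl
      rw [h6, ← h]
      simp
    have h6 := center_even h2 h5
    rw [hXinv] at h6
    have h7 : X * X * Y = X := by rw [mul_assoc, h6, mul_one]
    rwa [hXX, one_mul] at h7
  · refine hnot (X * Y) ?_ ?_
    · obtain ⟨e5, _, _, e8⟩ := mul_entries X Y
      rw [e5, e8, y1, y2, y3, y4, hqX]
      linear_combination (l * X.1 0 1 * X.1 1 0 + l * X.1 0 0 ^ 2) * h2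
    · intro h
      apply hYX
      have h7 : X * X * Y = X := by rw [mul_assoc, h, mul_one]
      rwa [hXX, one_mul] at h7
  · refine hnot (Y * X) ?_ ?_
    · obtain ⟨e5, _, _, e8⟩ := mul_entries Y X
      rw [e5, e8, y1, y2, y3, y4, hqX]
      linear_combination (l * X.1 0 1 * X.1 1 0 + l * X.1 0 0 ^ 2) * h2
    · intro h
      apply hYX
      have h7 : Y * (X * X) = X := by rw [← mul_assoc, h, one_mul]
      rwa [hXX, mul_one] at h7

end even

end Cfsg.Agent.Lib.OddGraph
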