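import Cfsg.Agent.Lib.OddGraph.Basic

/-! Paths of two involutions. -/

set_option autoImplicit false

namespace Cfsg.Agent.Lib.OddGraph

open Function Equiv

variable {α : Type*} [Fintype α]

open Classical

/-- the orbit of `a` under `V` -/
noncomputable def orb (V : Perm α) (a : α) : Finset α := Finset.univ.filter fun b => ∃ k : ℤ, (V ^ k) a = b

lemma mem_orb {V : Perm α} {a b : α} : b ∈ orb V a ↔ ∃ k : ℤ, (V ^ k) a = b := by simp [orb]

lemma self_mem_orb (V : Perm α) (a : α) : a ∈ orb V a := mem_orb.2 ⟨0, by simp⟩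

lemma perm_inv_eq {f : Perm α} (hf : ∀ a, f (f a) = a) : f⁻¹ = f := by
  ext a
  rw [Perm.inv_eq_iff_eq]
  exact (hf a).symm

lemma inv_mul_eq' {f g : Perm α} (hf : ∀ a, f (f a) = a) (hg : ∀ a, g (g a) = a) : (f * g)⁻¹ = g * f := by
  rw [mul_inv_rev, perm_inv_eq hf, perm_inv_eq hg]

lemma left_zpow {f g : Perm α} (hf : ∀ a, f (f a) = a) (hg : ∀ a, g (g a) = a) (k : ℤ) (b : α) :
    f (((f * g) ^ k) b) = ((f * g) ^ (-k)) (f b) := by
  have h : SemiconjBy f (f * g) (f * g)⁻¹ := by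
    unfold SemiconjBy
    rw [inv_mul_eq' hf hg]
    ext a
    simp [hf, hg]
  have h2 := h.zpow_right k
  unfold SemiconjBy at h2
  rw [inv_zpow'] at h2
  exact congrArg (fun p : Perm α => p b) h2

lemma right_zpow {f g : Perm α} (hf : ∀ a, f (f a) = a) (hg : ∀ a, g (g a) = a) (k : ℤ) (b : α) :
    g (((f * g) ^ k) b) = ((f * g) ^ (-k)) (g b) := by
  have h : SemiconjBy g (f * g) (f * g)⁻¹ := by
    unfold SemiconjBy
    rw [inv_mul_eq' hf hg]
    ext a
    simp [hf, hg]
  have h2 := h.zpow_right k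
  unfold SemiconjBy at h2
  rw [inv_zpow'] at h2
  exact congrArg (fun p : Perm α => p b) h2

lemma per_iff (V : Perm α) (a : α) (k : ℤ) : (V ^ k) a = a ↔ (MulAction.period V a : ℤ) ∣ k := by
  rw [← MulAction.zpow_smul_eq_iff_period_dvd, Perm.smul_def]

lemma per_iff_nat (V : Perm α) (a : α) (k : ℕ) : (V ^ k) a = a ↔ MulAction.period V a ∣ k := by
  rw [← MulAction.pow_smul_eq_iff_period_dvd, Perm.smul_def]

lemma period_pos' (V : Perm α) (a : α) : 0 < MulAction.period V a :=
  MulAction.period_pos_of_orderOf_pos (orderOf_pos V) a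

lemma zpow_apply_eq_of_dvd {V : Perm α} {a : α} {i j : ℤ} (h : (MulAction.period V a : ℤ) ∣ i - j) :
    (V ^ i) a = (V ^ j) a := by
  have h1 : (V ^ (i - j)) a = a := (per_iff V a _).2 h
  have h2 : V ^ i = V ^ j * V ^ (i - j) := by rw [← zpow_add]; congr 1; ring
  rw [h2, Perm.mul_apply, h1]

lemma zpow_eq_iff_dvd {V : Perm α} {a : α} {i j : ℤ} :
    (V ^ i) a = (V ^ j) a ↔ (MulAction.period V a : ℤ) ∣ i - j := by
  refine ⟨fun h => ?_, zpow_apply_eq_of_dvd⟩
  rw [← per_iff]
  have h2 : V ^ i = V ^ j * V ^ (i - j) := by rw [← zpow_add]; congr 1; ring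
  rw [h2, Perm.mul_apply] at h
  exact (V ^ j).injective h

lemma norm_idx (V : Perm α) (a : α) (k : ℤ) :
    ∃ n : ℕ, n < MulAction.period V a ∧ (V ^ k) a = (V ^ (n : ℤ)) a := by
  have hm := period_pos' V a
  set m := MulAction.period V a
  refine ⟨(k % m).toNat, ?_, ?_⟩
  · have h1 : k % m < m := Int.emod_lt_of_pos _ (by exact_mod_cast hm)
    have h2 : 0 ≤ k % m := Int.emod_nonneg _ (by exact_mod_cast hm.ne')
    omega
  · apply zpow_apply_eq_of_dvd
    have h2 : 0 ≤ k % m := Int.emod_nonneg _ (by exact_mod_cast hm.ne')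
    rw [Int.toNat_of_nonneg h2]
    exact Int.dvd_self_sub_emod

section facts

variable {f g : Perm α} (hf : ∀ a, f (f a) = a) (hg : ∀ a, g (g a) = a) {p : α} (hgp : g p = p)

include hf hg hgp

lemma g_orb (k : ℤ) : g (((f * g) ^ k) p) = ((f * g) ^ (-k)) p := by
  rw [right_zpow hf hg, hgp]

lemma f_orb (k : ℤ) : f (((f * g) ^ k) p) = ((f * g) ^ (1 - k)) p := by
  rw [left_zpow hf hg]
  have h1 : f p = (f * g) p := by simp [hgp]
  rw [h1, ← Perm.mul_apply, ← zpow_add_one]
  congr 2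
  ring

lemma g_mem {b : α} (hb : b ∈ orb (f * g) p) : g b ∈ orb (f * g) p := by
  obtain ⟨k, rfl⟩ := mem_orb.1 hb
  exact mem_orb.2 ⟨-k, (g_orb hf hg hgp k).symm⟩

lemma f_mem {b : α} (hb : b ∈ orb (f * g) p) : f b ∈ orb (f * g) p := by
  obtain ⟨k, rfl⟩ := mem_orb.1 hb
  exact mem_orb.2 ⟨1 - k, (f_orb hf hg hgp k).symm⟩

lemma f_no_fix (hm : Even (MulAction.period (f * g) p)) {b : α} (hb : b ∈ orb (f * g) p) : f b ≠ b := by
  obtain ⟨k, rfl⟩ := mem_orb.1 hb
  rw [f_orb hf hg hgp]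
  intro h
  have h1 := zpow_eq_iff_dvd.1 h
  obtain ⟨c, hc⟩ := hm
  rw [hc] at h1
  push_cast at h1
  obtain ⟨d, hd⟩ := h1
  have h3 : (1 : ℤ) - k - k = 2 * (c * d) := by rw [hd]; ring
  omega

lemma g_fix_filter (hm : Even (MulAction.period (f * g) p)) :
    ∃ p' : α, p' ∈ orb (f * g) p ∧ p' ≠ p ∧ g p' = p' ∧ ∀ b ∈ orb (f * g) p, g b = b → b = p ∨ b = p' := by
  obtain ⟨r, hr⟩ := hm
  have hpos := period_pos' (f * g) p
  refine ⟨((f * g) ^ (r : ℤ)) p, mem_orb.2 ⟨_, rfl⟩, ?_, ?_, ?_⟩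
  · intro h
    have := (per_iff _ _ _).1 h
    rw [hr] at this
    push_cast at this
    have h2 : ((r : ℤ) + r) ∣ r := this
    have h3 : ((r + r : ℕ) : ℤ) ∣ (r : ℤ) := by exact_mod_cast h2
    have h4 := Int.natCast_dvd_natCast.1 h3
    have := Nat.le_of_dvd (by omega) h4
    omega
  · rw [g_orb hf hg hgp]
    apply zpow_apply_eq_of_dvd
    rw [hr]
    push_cast
    exact ⟨-1, by ring⟩
  · intro b hb hgb
    obtain ⟨k, rfl⟩ := mem_orb.1 hb
    rw [g_orb hf hg hgp] at hgb
    have h1 := zpow_eq_iff_dvd.1 hgb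
    rw [hr] at h1
    push_cast at h1
    obtain ⟨d, hd⟩ := h1
    have hk : k = -(r : ℤ) * d := by
      have : 2 * k = 2 * (-(r : ℤ) * d) := by linarith
      omega
    rcases Int.even_or_odd' d with ⟨c, hc | hc⟩
    · left
      rw [per_iff, hr]
      push_cast
      exact ⟨-c, by rw [hk, hc]; ring⟩
    · right
      apply zpow_apply_eq_of_dvd
      rw [hr]
      push_cast
      exact ⟨-c - 1, by rw [hk, hc]; ring⟩

end facts

/-- oddness along a path with the extra point `q` inserted -/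
lemma path_odd {f g : Perm α} {p q : α} (hgp : g p = p) (hfq : f q = q) {h : α → α} (hp : h p = q) (hq : h q = p)
    (hg' : ∀ b ∈ orb (f * g) p, b ≠ p → h b = g b) (hm : Even (MulAction.period (f * g) p)) :
    OddOn (f ∘ h) (insert q (orb (f * g) p)) := by
  set V := f * g with hV
  set m := MulAction.period V p with hmdef
  have hpos : 0 < m := period_pos' V p
  set T := f ∘ h with hT
  have hit : ∀ k : ℕ, k + 1 ≤ m → T^[k + 1] q = (V ^ (k + 1 : ℕ)) p := by
    intro k
    induction k with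
    | zero =>
      intro _
      simp [hT, hq, hV, hgp]
    | succ k ih =>
      intro hk
      have hne : (V ^ (k + 1 : ℕ)) p ≠ p := by
        intro hc
        have := (per_iff_nat V p _).1 hc
        have := Nat.le_of_dvd (by omega) this
        omega
      rw [iterate_succ_apply', ih (by omega), hT, comp_apply,
        hg' _ (mem_orb.2 ⟨((k + 1 : ℕ) : ℤ), by rw [zpow_natCast]⟩) hne, pow_succ' V (k + 1), Perm.mul_apply]
      simp [hV]
  have hclose : T^[m + 1] q = q := by
    rw [iterate_succ_apply']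
    obtain ⟨i, hi⟩ : ∃ i, m = i + 1 := ⟨m - 1, by omega⟩
    rw [hi, hit i (by omega), ← hi]
    have h1 : (V ^ m) p = p := (per_iff_nat V p m).2 dvd_rfl
    rw [h1]
    simp [hT, hp, hfq]
  refine ⟨m + 1, hm.add_one, ?_⟩
  intro a ha
  rcases Finset.mem_insert.1 ha with rfl | ha
  · exact hclose
  · obtain ⟨k, rfl⟩ := mem_orb.1 ha
    obtain ⟨n, hn, hk⟩ := norm_idx V p k
    rw [hk]
    by_cases h0 : n = 0
    · have h1 : (V ^ ((n : ℕ) : ℤ)) p = (V ^ m) p := by
        subst h0
        rw [(per_iff_nat V p m).2 dvd_rfl]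
        simp
      rw [h1]
      obtain ⟨i, hi⟩ : ∃ i, m = i + 1 := ⟨m - 1, by omega⟩
      have h2 : (V ^ m) p = T^[i + 1] q := by rw [hit i (by omega), ← hi]
      rw [h2]
      exact iter_iter_fixed hclose _
    · obtain ⟨i, rfl⟩ : ∃ i, n = i + 1 := ⟨n - 1, by omega⟩
      rw [zpow_natCast, ← hit i (by omega)]
      exact iter_iter_fixed hclose _

/-- a pair of paths -/
lemma sol_pair {x y : Perm α} (hx : ∀ a, x (x a) = a) (hy : ∀ a, y (y a) = a) {p q : α}
    (hyp : y p = p) (hxq : x q = q) (hm₁ : Even (MulAction.period (x * y) p))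
    (hm₂ : Even (MulAction.period (y * x) q)) (hne : q ∉ orb (x * y) p) :
    ∃ z : α → α, Sol x y (orb (x * y) p ∪ orb (y * x) q) z ∧ Flag x (orb (x * y) p ∪ orb (y * x) q) z ∧
      ((orb (x * y) p ∪ orb (y * x) q).filter fun a => x a = a).card =
        ((orb (x * y) p ∪ orb (y * x) q).filter fun a => y a = a).card ∧
      Disjoint (orb (x * y) p) (orb (y * x) q) := by
  set P := orb (x * y) p with hP
  set Q := orb (y * x) q with hQ
  have hpP : p ∈ P := self_mem_orb _ _
  have hqQ : q ∈ Q := self_mem_orb _ _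
  have hdisj : Disjoint P Q := by
    rw [Finset.disjoint_left]
    intro b hb1 hb2
    obtain ⟨k, hk⟩ := mem_orb.1 hb1
    obtain ⟨l, hl⟩ := mem_orb.1 hb2
    apply hne
    refine mem_orb.2 ⟨l + k, ?_⟩
    have h1 : y * x = (x * y)⁻¹ := (inv_mul_eq' hx hy).symm
    rw [h1, inv_zpow'] at hl
    have h2 : q = ((x * y) ^ l) b := by
      rw [← hl, ← Perm.mul_apply, ← zpow_add]
      simp
    rw [h2, ← hk, ← Perm.mul_apply, ← zpow_add]
  have hpq : p ≠ q := fun h => hne (h ▸ hpP)
  have hpQ : p ∉ Q := Finset.disjoint_left.1 hdisj hpP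
  have hyP : ∀ b ∈ P, y b ∈ P := fun b hb => g_mem hx hy hyp hb
  have hxP : ∀ b ∈ P, x b ∈ P := fun b hb => f_mem hx hy hyp hb
  have hxQ : ∀ b ∈ Q, x b ∈ Q := fun b hb => g_mem hy hx hxq hb
  have hyQ : ∀ b ∈ Q, y b ∈ Q := fun b hb => f_mem hy hx hxq hb
  have hxnf : ∀ b ∈ P, x b ≠ b := fun b hb => f_no_fix hx hy hyp hm₁ hb
  have hynf : ∀ b ∈ Q, y b ≠ b := fun b hb => f_no_fix hy hx hxq hm₂ hb
  obtain ⟨p', hp'P, hp'p, hyp', hp'u⟩ := g_fix_filter hx hy hyp hm₁
  obtain ⟨q', hq'Q, hq'q, hxq', hq'u⟩ := g_fix_filter hy hx hxq hm₂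
  let z : α → α := fun b => if b = p then q else if b = q then p else if b ∈ P then y b else if b ∈ Q then x b else b
  have hzp : z p = q := by simp [z]
  have hzq : z q = p := by simp [z, hpq.symm]
  have hzP : ∀ b ∈ P, b ≠ p → z b = y b := by
    intro b hb hbp
    have : b ≠ q := fun h => hne (h ▸ hb)
    simp [z, hbp, this, hb]
  have hzQ : ∀ b ∈ Q, b ≠ q → z b = x b := by
    intro b hb hbq
    have h1 : b ≠ p := fun h => hpQ (h ▸ hb)
    have h2 : b ∉ P := fun h => Finset.disjoint_left.1 hdisj h hb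
    simp [z, h1, hbq, h2, hb]
  have hp'ne : p' ≠ q := fun h => hne (h ▸ hp'P)
  have hq'ne : q' ≠ p := fun h => hpQ (h ▸ hq'Q)
  have hpQ' : p' ∉ Q := Finset.disjoint_left.1 hdisj hp'P
  refine ⟨z, ⟨?_, ?_, ?_, ?_, ?_⟩, ⟨q', Finset.mem_union_right _ hq'Q, ?_⟩, ?_, hdisj⟩
  · intro b
    by_cases hbp : b = p
    · rw [hbp, hzp, hzq]
    by_cases hbq : b = q
    · rw [hbq, hzq, hzp]
    by_cases hbP : b ∈ P
    · rw [hzP b hbP hbp]
      have h1 : y b ≠ p := fun h => hbp (by rw [← hy b, h, hyp])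
      rw [hzP _ (hyP b hbP) h1, hy]
    by_cases hbQ : b ∈ Q
    · rw [hzQ b hbQ hbq]
      have h1 : x b ≠ q := fun h => hbq (by rw [← hx b, h, hxq])
      rw [hzQ _ (hxQ b hbQ) h1, hx]
    · have : z b = b := by simp [z, hbp, hbq, hbP, hbQ]
      rw [this, this]
  · intro b hb
    have h1 : b ∉ P := fun h => hb (Finset.mem_union_left _ h)
    have h2 : b ∉ Q := fun h => hb (Finset.mem_union_right _ h)
    have h3 : b ≠ p := fun h => h1 (h ▸ hpP)
    have h4 : b ≠ q := fun h => h2 (h ▸ hqQ)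
    simp [z, h1, h2, h3, h4]
  · have e1 : (P ∪ Q).filter (fun a => z a = a) = {p', q'} := by
      ext b
      simp only [Finset.mem_filter, Finset.mem_union, Finset.mem_insert, Finset.mem_singleton]
      constructor
      · rintro ⟨hb | hb, hzb⟩
        · have hbp : b ≠ p := by
            rintro rfl
            rw [hzp] at hzb
            exact hpq hzb.symm
          rw [hzP b hb hbp] at hzb
          exact Or.inl ((hp'u b hb hzb).resolve_left hbp)
        · have hbq : b ≠ q := by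
            rintro rfl
            rw [hzq] at hzb
            exact hpq hzb
          rw [hzQ b hb hbq] at hzb
          exact Or.inr ((hq'u b hb hzb).resolve_left hbq)
      · rintro (rfl | rfl)
        · exact ⟨Or.inl hp'P, by rw [hzP _ hp'P hp'p, hyp']⟩
        · exact ⟨Or.inr hq'Q, by rw [hzQ _ hq'Q hq'q, hxq']⟩
    have e2 : (P ∪ Q).filter (fun a => x a = a) = {q, q'} := by
      ext b
      simp only [Finset.mem_filter, Finset.mem_union, Finset.mem_insert, Finset.mem_singleton]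
      constructor
      · rintro ⟨hb | hb, hzb⟩
        · exact absurd hzb (hxnf b hb)
        · exact hq'u b hb hzb
      · rintro (rfl | rfl)
        · exact ⟨Or.inr hqQ, hxq⟩
        · exact ⟨Or.inr hq'Q, hxq'⟩
    have hne2 : p' ≠ q' := fun h => hpQ' (h ▸ hq'Q)
    rw [e1, e2, Finset.card_pair hne2, Finset.card_pair hq'q.symm]
  · have h1 : OddOn (x ∘ z) (insert q P) :=
      path_odd hyp hxq hzp hzq hzP hm₁
    have h2 : OddOn (x ∘ z) (Q.erase q) := by
      apply OddOn.of_fixed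
      intro a ha
      have := Finset.mem_erase.1 ha
      simp [hzQ a this.2 this.1, hx]
    refine (h1.union h2).mono ?_
    intro b hb
    rcases Finset.mem_union.1 hb with hb | hb
    · exact Finset.mem_union_left _ (Finset.mem_insert_of_mem hb)
    · by_cases hbq : b = q
      · exact Finset.mem_union_left _ (by simp [hbq])
      · exact Finset.mem_union_right _ (Finset.mem_erase.2 ⟨hbq, hb⟩)
  · have h1 : OddOn (y ∘ z) (insert p Q) :=
      path_odd hxq hyp hzq hzp hzQ hm₂
    have h2 : OddOn (y ∘ z) (P.erase p) := by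
      apply OddOn.of_fixed
      intro a ha
      have := Finset.mem_erase.1 ha
      simp [hzP a this.2 this.1, hy]
    refine (h1.union h2).mono ?_
    intro b hb
    rcases Finset.mem_union.1 hb with hb | hb
    · by_cases hbp : b = p
      · exact Finset.mem_union_left _ (by simp [hbp])
      · exact Finset.mem_union_right _ (Finset.mem_erase.2 ⟨hbp, hb⟩)
    · exact Finset.mem_union_left _ (Finset.mem_insert_of_mem hb)
  · rw [hzQ _ hq'Q hq'q]
  · have e2 : (P ∪ Q).filter (fun a => x a = a) = {q, q'} := by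
      ext b
      simp only [Finset.mem_filter, Finset.mem_union, Finset.mem_insert, Finset.mem_singleton]
      constructor
      · rintro ⟨hb | hb, hzb⟩
        · exact absurd hzb (hxnf b hb)
        · exact hq'u b hb hzb
      · rintro (rfl | rfl)
        · exact ⟨Or.inr hqQ, hxq⟩
        · exact ⟨Or.inr hq'Q, hxq'⟩
    have e3 : (P ∪ Q).filter (fun a => y a = a) = {p, p'} := by
      ext b
      simp only [Finset.mem_filter, Finset.mem_union, Finset.mem_insert, Finset.mem_singleton]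
      constructor
      · rintro ⟨hb | hb, hzb⟩
        · exact hp'u b hb hzb
        · exact absurd hzb (hynf b hb)
      · rintro (rfl | rfl)
        · exact ⟨Or.inl hpP, hyp⟩
        · exact ⟨Or.inl hp'P, hyp'⟩
    rw [e2, e3, Finset.card_pair hq'q.symm, Finset.card_pair hp'p.symm]

end Cfsg.Agent.Lib.OddGraph
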