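import Mathlib

/-! A quadratic character sum, and the choice of two parameters. -/

set_option autoImplicit false

namespace Cfsg.Agent.Lib.OddGraph

variable {F : Type*} [Field F] [Fintype F]

open Classical in
lemma sum_chi_sq_sub (h2 : ringChar F ≠ 2) {κ : F} (hκ : κ ≠ 0) :
    ∑ u : F, quadraticChar F (u ^ 2 - κ) = -1 := by
  have h20 : (2 : F) ≠ 0 := Ring.two_ne_zero h2
  let P : Finset (F × F) := Finset.univ.filter fun p => p.2 ^ 2 = p.1 ^ 2 - κ
  have hP : P.card = Fintype.card F - 1 := by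
    have hunits : ((Finset.univ : Finset F).erase 0).card = Fintype.card F - 1 := by
      rw [Finset.card_erase_of_mem (Finset.mem_univ _), Finset.card_univ]
    rw [← hunits]
    apply Finset.card_nbij' (fun p => p.1 + p.2) (fun m => ((m + κ / m) / 2, (m - κ / m) / 2))
    · intro p hp
      simp only [P, Finset.coe_filter, Finset.mem_univ, true_and, Set.mem_ofPred_eq] at hp
      simp only [Finset.coe_erase, Finset.coe_univ, Set.mem_sdiff, Set.mem_univ, Set.mem_singleton_iff, true_and]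
      intro h
      have h3 : (p.1 + p.2) * (p.1 - p.2) = κ := by rw [← sub_eq_zero]; linear_combination -hp
      rw [h, zero_mul] at h3
      exact hκ h3.symm
    · intro m hm
      simp only [Finset.coe_erase, Finset.coe_univ, Set.mem_sdiff, Set.mem_univ, Set.mem_singleton_iff, true_and] at hm
      simp only [P, Finset.coe_filter, Finset.mem_univ, true_and, Set.mem_ofPred_eq]
      field_simp
      ring
    · intro p hp
      simp only [P, Finset.coe_filter, Finset.mem_univ, true_and, Set.mem_ofPred_eq] at hp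
      have h3 : (p.1 + p.2) * (p.1 - p.2) = κ := by rw [← sub_eq_zero]; linear_combination -hp
      have h4 : p.1 + p.2 ≠ 0 := by
        intro h
        rw [h, zero_mul] at h3
        exact hκ h3.symm
      have h5 : κ / (p.1 + p.2) = p.1 - p.2 := by
        rw [div_eq_iff h4, ← h3]; ring
      ext
      · simp only [h5]; field_simp; ring
      · simp only [h5]; field_simp; ring
    · intro m hm
      simp only [Finset.coe_erase, Finset.coe_univ, Set.mem_sdiff, Set.mem_univ, Set.mem_singleton_iff, true_and] at hm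
      simp only
      field_simp
      ring
  have hP2 : (P.card : ℤ) = ∑ u : F, (quadraticChar F (u ^ 2 - κ) + 1) := by
    have h1 : P.card = ∑ u : F, (Finset.univ.filter fun x : F => x ^ 2 = u ^ 2 - κ).card := by
      simp only [P, Finset.card_filter, Fintype.sum_prod_type]
    rw [h1]
    push_cast
    apply Finset.sum_congr rfl
    intro u _
    rw [← quadraticChar_card_sqrts h2]
    congr 2
    ext x
    simp
  rw [Finset.sum_add_distrib] at hP2
  simp only [Finset.sum_const, Finset.card_univ, nsmul_eq_mul, mul_one] at hP2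
  rw [hP] at hP2
  have hq : 1 ≤ Fintype.card F := Fintype.card_pos
  push_cast [hq] at hP2
  linarith

open Classical in
/-- the two parameters -/
lemma exists_params (h2 : ringChar F ≠ 2) (hneg : ¬ IsSquare (-1 : F)) (hq : 4 ≤ Fintype.card F)
    {c b₀ : F} (hb₀ : b₀ ≠ 0) (hc : c ^ 2 - 4 = -4 * b₀ ^ 2) :
    ∃ s t : F, s ≠ 0 ∧ t ≠ 0 ∧
      IsSquare (-((s + 1 / s) ^ 2 + (t + 1 / t) ^ 2 + c * (s + 1 / s) * (t + 1 / t) + c ^ 2 - 4)) := by
  have h20 : (2 : F) ≠ 0 := Ring.two_ne_zero h2
  set χ := quadraticChar F with hχ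
  have hχneg : χ (-1) = -1 := by
    rw [hχ, quadraticChar_neg_one_iff_not_isSquare]
    exact hneg
  let N : F → F := fun a => a ^ 2 + c * a + 1
  have hN0 : ∀ a, N a ≠ 0 := by
    intro a ha
    apply hneg
    refine ⟨(2 * a + c) / (2 * b₀), ?_⟩
    have h3 : (2 * a + c) ^ 2 = -4 * b₀ ^ 2 := by
      rw [← hc]
      have : a ^ 2 + c * a + 1 = 0 := ha
      linear_combination 4 * this
    field_simp
    linear_combination -h3
  have hχN : ∀ a, χ (N a) = 1 ∨ χ (N a) = -1 := fun a => quadraticChar_dichotomy (hN0 a)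
  have hsum : ∑ a : F, χ (N a) = -1 := by
    have hκ : (c / 2) ^ 2 - 1 = -b₀ ^ 2 := by
      have h5 : c ^ 2 = 4 - 4 * b₀ ^ 2 := by linear_combination hc
      field_simp
      linear_combination h5
    have h3 : ∑ a : F, χ (N a) = ∑ u : F, χ (u ^ 2 - ((c / 2) ^ 2 - 1)) := by
      rw [← Equiv.sum_comp (Equiv.addRight (c / 2)) (fun u : F => χ (u ^ 2 - ((c / 2) ^ 2 - 1)))]
      apply Finset.sum_congr rfl
      intro a _
      congr 1
      simp only [Equiv.coe_addRight, N]
      field_simp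
      ring
    rw [h3]
    apply sum_chi_sq_sub h2
    rw [hκ]
    exact neg_ne_zero.2 (pow_ne_zero _ hb₀)
  -- the pair of parameters
  obtain ⟨a₀, b₁, ha₀, hb₁, hclass, hdiff⟩ : ∃ a₀ b₁ : F, a₀ ≠ 0 ∧ b₁ ≠ 0 ∧ χ a₀ = χ b₁ ∧ χ (N a₀) ≠ χ (N b₁) := by
    by_contra hcon
    push Not at hcon
    set ε₁ := χ (N 1) with hε₁
    set ε₂ := χ (N (-1)) with hε₂
    have hval : ∀ a : F, a ≠ 0 → 2 * χ (N a) = (ε₁ + ε₂) + χ a * (ε₁ - ε₂) := by
      intro a ha
      rcases quadraticChar_dichotomy ha with h | h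
      · have h1 : χ a = χ 1 := by rw [h, map_one]
        have := hcon a 1 ha one_ne_zero h1
        rw [h, this]
        ring
      · have h1 : χ a = χ (-1) := by rw [h, hχneg]
        have := hcon a (-1) ha (neg_ne_zero.2 one_ne_zero) h1
        rw [h, this]
        ring
    have hs0 : ∑ a : F, χ a = 0 := quadraticChar_sum_zero h2
    have he : ∑ a ∈ (Finset.univ : Finset F).erase 0, χ (N a) = -2 := by
      have := Finset.add_sum_erase (Finset.univ : Finset F) (fun a => χ (N a)) (Finset.mem_univ 0)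
      rw [hsum] at this
      have h0 : χ (N 0) = 1 := by
        simp [N, hχ]
      rw [h0] at this
      linarith
    have he2 : ∑ a ∈ (Finset.univ : Finset F).erase 0, χ a = 0 := by
      have := Finset.add_sum_erase (Finset.univ : Finset F) (fun a => χ a) (Finset.mem_univ 0)
      have h00 : χ 0 = 0 := quadraticChar_eq_zero_iff.2 rfl
      rw [hs0, h00, zero_add] at this
      exact this
    have hfin : (-4 : ℤ) = (Fintype.card F - 1 : ℤ) * (ε₁ + ε₂) := by
      have h3 : ∑ a ∈ (Finset.univ : Finset F).erase 0, (2 * χ (N a)) =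
          ∑ a ∈ (Finset.univ : Finset F).erase 0, ((ε₁ + ε₂) + χ a * (ε₁ - ε₂)) :=
        Finset.sum_congr rfl fun a ha => hval a (Finset.ne_of_mem_erase ha)
      rw [← Finset.mul_sum, he, Finset.sum_add_distrib, ← Finset.sum_mul, he2, Finset.sum_const,
        Finset.card_erase_of_mem (Finset.mem_univ _), Finset.card_univ, nsmul_eq_mul] at h3
      have hq1 : 1 ≤ Fintype.card F := Fintype.card_pos
      push_cast [hq1] at h3
      linarith
    have hq' : (4 : ℤ) ≤ Fintype.card F := by exact_mod_cast hq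
    rcases hχN 1 with h1 | h1 <;> rcases hχN (-1) with h3 | h3 <;> rw [← hε₁] at h1 <;> rw [← hε₂] at h3 <;>
      rw [h1, h3] at hfin <;> omega
  have hprod : χ (a₀ * b₁) = 1 := by
    rw [map_mul, ← hclass]
    rcases quadraticChar_dichotomy ha₀ with h | h <;> rw [h] <;> norm_num
  have hsq : IsSquare (a₀ * b₁) := (quadraticChar_one_iff_isSquare (mul_ne_zero ha₀ hb₁)).1 hprod
  obtain ⟨s, hs⟩ := hsq
  have hs0 : s ≠ 0 := by
    rintro rfl
    simp [ha₀, hb₁] at hs
  refine ⟨s, b₁ / s, hs0, div_ne_zero hb₁ hs0, ?_⟩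
  set t := b₁ / s with ht
  have ht0 : t ≠ 0 := div_ne_zero hb₁ hs0
  have hst : s * t = b₁ := by rw [ht]; field_simp
  have hsot : s / t = a₀ := by
    rw [ht]
    field_simp
    rw [pow_two, ← hs, mul_comm]
  have hE : (s + 1 / s) ^ 2 + (t + 1 / t) ^ 2 + c * (s + 1 / s) * (t + 1 / t) + c ^ 2 - 4 =
      N a₀ * N b₁ / (a₀ * b₁) := by
    simp only [N]
    rw [← hst, ← hsot]
    field_simp
    ring
  rw [hE]
  have hne : -(N a₀ * N b₁ / (a₀ * b₁)) ≠ 0 :=
    neg_ne_zero.2 (div_ne_zero (mul_ne_zero (hN0 _) (hN0 _)) (mul_ne_zero ha₀ hb₁))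
  rw [← quadraticChar_one_iff_isSquare hne]
  have h3 : -(N a₀ * N b₁ / (a₀ * b₁)) = (-1) * (N a₀ * N b₁ * (a₀ * b₁)) * ((a₀ * b₁)⁻¹) ^ 2 := by
    have := mul_ne_zero ha₀ hb₁
    field_simp
  have h4 : χ ((a₀ * b₁)⁻¹) ^ 2 = 1 := by
    rcases quadraticChar_dichotomy (inv_ne_zero (mul_ne_zero ha₀ hb₁)) with h | h <;> rw [h] <;> norm_num
  have h5 : χ (N a₀) * χ (N b₁) = -1 := by
    rcases hχN a₀ with h6 | h6 <;> rcases hχN b₁ with h7 | h7
    · exact absurd (h6.trans h7.symm) hdiff
    · rw [h6, h7]; norm_num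
    · rw [h6, h7]; norm_num
    · exact absurd (h6.trans h7.symm) hdiff
  rw [h3, map_mul χ, map_mul χ, map_mul χ (N a₀ * N b₁), map_mul χ (N a₀), map_pow, h4, h5, hprod, hχneg]
  norm_num

end Cfsg.Agent.Lib.OddGraph
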